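import Cfsg.Agent.Cop.Basic

/-! Coprime automorphisms centralizing the centralizer of an involution: basic Sylow type lemmas. -/

set_option autoImplicit false

open scoped Pointwise commutatorElement
open Subgroup

namespace Cfsg.Agent.H64.CI

variable {H : Type*} [Group H]

theorem ord2 {x : H} : orderOf x = 2 ↔ x * x = 1 ∧ x ≠ 1 := by
  constructor
  · intro h
    refine ⟨by rw [← pow_two, ← h, pow_orderOf_eq_one], ?_⟩
    rintro rfl
    simp at h
  · rintro ⟨h1, h2⟩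
    exact orderOf_eq_prime (by rw [pow_two, h1]) h2

theorem inv2 {x : H} (h : orderOf x = 2) : x⁻¹ = x := by
  rw [inv_eq_iff_mul_eq_one]; exact (ord2.1 h).1

theorem ord_conj (g x : H) : orderOf (g * x * g⁻¹) = orderOf x := by
  have h := orderOf_injective (MulAut.conj g).toMonoidHom (MulAut.conj g).injective x
  simpa [MulAut.conj_apply] using h

/-- the inverse of a conjugation stable subgroup -/
theorem mem_norm [Finite H] {K : Subgroup H} {g : H} (h1 : ∀ x ∈ K, g * x * g⁻¹ ∈ K) :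
    g ∈ normalizer (K : Set H) := by
  have hpow : ∀ n : ℕ, ∀ x ∈ K, g ^ n * x * (g ^ n)⁻¹ ∈ K := by
    intro n
    induction n with
    | zero => intro x hx; simpa using hx
    | succ n ih =>
      intro x hx
      have h2 := h1 _ (ih x hx)
      have h3 : g ^ (n + 1) * x * (g ^ (n + 1))⁻¹ = g * (g ^ n * x * (g ^ n)⁻¹) * g⁻¹ := by
        rw [pow_succ']; group
      rwa [h3]
  rw [mem_normalizer_iff]
  intro x
  refine ⟨h1 x, fun hx => ?_⟩
  have h2 : g ^ (orderOf g - 1) = g⁻¹ := by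
    rw [eq_inv_iff_mul_eq_one, ← pow_succ, Nat.sub_add_cancel (orderOf_pos g), pow_orderOf_eq_one]
  have h3 := hpow (orderOf g - 1) _ hx
  rw [h2] at h3
  have h4 : g⁻¹ * (g * x * g⁻¹) * g⁻¹⁻¹ = x := by group
  rwa [h4] at h3

theorem norm_conj {K : Subgroup H} {g x : H} (h : g ∈ normalizer (K : Set H)) (hx : x ∈ K) : g * x * g⁻¹ ∈ K :=
  (mem_normalizer_iff.1 h x).1 hx

theorem norm_conj' {K : Subgroup H} {g x : H} (h : g ∈ normalizer (K : Set H)) (hx : x ∈ K) : g⁻¹ * x * g ∈ K := by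
  have := norm_conj ((normalizer (K : Set H)).inv_mem h) hx
  rwa [inv_inv] at this

/-- conjugacy of the complements of order `p` -/
theorem sy [Finite H] {p : ℕ} (hp : p.Prime) {R : Subgroup H} {a f : H} (ha : orderOf a = p)
    (hpR : ¬ p ∣ Nat.card R) (haR : a ∈ normalizer (R : Set H)) (hf : f * a⁻¹ ∈ R) (hfp : f ^ p = 1) :
    ∃ r ∈ R, f = r * a * r⁻¹ := by
  have hcop : (Nat.card R).Coprime (Nat.card (zpowers a)) := by
    rw [Nat.card_zpowers, ha]
    exact (Nat.Prime.coprime_iff_not_dvd hp).2 hpR |>.symm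
  have hAN : zpowers a ≤ normalizer (R : Set H) := by rwa [zpowers_le]
  have hf1 : f ≠ 1 := by
    rintro rfl
    rw [one_mul, inv_mem_iff] at hf
    have h1 : orderOf (⟨a, hf⟩ : R) = p := by rw [← ha]; exact (Subgroup.orderOf_coe (⟨a, hf⟩ : R)).symm
    exact hpR (h1 ▸ orderOf_dvd_natCard (⟨a, hf⟩ : R))
  have hof : orderOf f = p := by
    haveI := Fact.mk hp
    exact orderOf_eq_prime hfp hf1
  have hB : zpowers f ≤ R ⊔ zpowers a := by
    rw [zpowers_le]
    have h1 : f = (f * a⁻¹) * a := by group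
    rw [h1]
    exact mul_mem (mem_sup_left hf) (mem_sup_right (mem_zpowers a))
  haveI : Group.IsSolvable (zpowers a) := inferInstance
  obtain ⟨n, hn, hn'⟩ := Cop.sz_rel hAN hB (by rw [Nat.card_zpowers, Nat.card_zpowers, hof, ha]) hcop
    (Or.inr inferInstance)
  have h1 : f ∈ MulAut.conj n • zpowers a := by rw [hn']; exact mem_zpowers f
  rw [Hall.mem_conj_smul] at h1
  obtain ⟨i, hi⟩ := mem_zpowers_iff.1 h1
  refine ⟨n, hn, ?_⟩
  have h2 : f = n * a ^ i * n⁻¹ := by rw [hi]; group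
  have h3 : a ^ (i - 1) ∈ R := by
    have h4 : a ^ i * n⁻¹ * (a ^ i)⁻¹ ∈ R := norm_conj ((normalizer (R : Set H)).zpow_mem haR i) (R.inv_mem hn)
    have h5 : a ^ (i - 1) = (n * (a ^ i * n⁻¹ * (a ^ i)⁻¹))⁻¹ * (f * a⁻¹) := by
      rw [h2, zpow_sub_one]; group
    rw [h5]
    exact mul_mem (inv_mem (mul_mem hn h4)) hf
  have h6 : a ^ (i - 1) = 1 := Cop.eq_one_of_mem_of_mem hcop h3 ⟨i - 1, rfl⟩
  rw [h2]
  have h7 : a ^ i = a := by
    rw [zpow_sub_one, mul_inv_eq_one] at h6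
    exact h6
  rw [h7]

/-! ### dihedral groups -/

theorem inv_zp {x y u : H} (hx : orderOf x = 2) (hy : orderOf y = 2) (hu : u ∈ zpowers (x * y)) :
    x * u * x⁻¹ = u⁻¹ := by
  obtain ⟨i, rfl⟩ := mem_zpowers_iff.1 hu
  have h1 : x * (x * y) * x⁻¹ = (x * y)⁻¹ := by
    rw [mul_inv_rev, inv2 hx, inv2 hy, ← mul_assoc, (ord2.1 hx).1, one_mul]
  rw [← conj_zpow, h1, inv_zpow]

theorem comm_of_zp {x y w : H} (hx : orderOf x = 2) (hy : orderOf y = 2) (hw : w ∈ zpowers (x * y))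
    (hw2 : orderOf w = 2) : w * x = x * w ∧ w * y = y * w := by
  have h1 := inv_zp hx hy hw
  rw [inv2 hw2, mul_inv_eq_iff_eq_mul] at h1
  refine ⟨h1.symm, ?_⟩
  obtain ⟨i, hi⟩ := mem_zpowers_iff.1 hw
  have h2 : w * (x * y) = (x * y) * w := by
    rw [← hi]; exact ((Commute.refl (x * y)).zpow_left i).eq
  have h3 : x * (w * y) = x * (y * w) := by
    calc x * (w * y) = w * (x * y) := by rw [← mul_assoc, h1, mul_assoc]
      _ = x * (y * w) := by rw [h2, mul_assoc]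
  exact mul_left_cancel h3

theorem zp_eq [Finite H] {u w : H} (hw : w ∈ zpowers u) (hw2 : orderOf w = 2) :
    Even (orderOf u) ∧ w = u ^ (orderOf u / 2) := by
  rw [← mem_powers_iff_mem_zpowers] at hw
  obtain ⟨i, hi⟩ := hw
  have hi : u ^ i = w := hi
  have h1 : orderOf u ∣ 2 * i := by
    rw [orderOf_dvd_iff_pow_eq_one, mul_comm, pow_mul, hi, pow_two]; exact (ord2.1 hw2).1
  have h2 : ¬ orderOf u ∣ i := by
    rw [orderOf_dvd_iff_pow_eq_one, hi]; exact (ord2.1 hw2).2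
  have h3 : Even (orderOf u) := by
    by_contra hodd
    rw [Nat.not_even_iff_odd] at hodd
    exact h2 ((Nat.Coprime.dvd_mul_left (Nat.coprime_two_right.2 hodd)).1 h1)
  refine ⟨h3, ?_⟩
  obtain ⟨k, hk⟩ := h3
  have hk2 : orderOf u = 2 * k := by omega
  rw [hk2] at h1 h2 ⊢
  rw [Nat.mul_div_cancel_left _ (by norm_num)]
  have h4 : k ∣ i := Nat.dvd_of_mul_dvd_mul_left (by norm_num) h1
  obtain ⟨t, rfl⟩ := h4
  have h5 : ¬ Even t := by
    rintro ⟨s, rfl⟩
    exact h2 ⟨s, by ring⟩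
  rw [Nat.not_even_iff_odd] at h5
  obtain ⟨s, rfl⟩ := h5
  rw [← hi]
  have h6 : u ^ (2 * k) = 1 := by rw [← hk2, pow_orderOf_eq_one]
  calc u ^ (k * (2 * s + 1)) = (u ^ (2 * k)) ^ s * u ^ k := by rw [← pow_mul, ← pow_add]; ring_nf
    _ = u ^ k := by rw [h6, one_pow, one_mul]

theorem zp_uniq [Finite H] {u w w' : H} (hw : w ∈ zpowers u) (hw2 : orderOf w = 2) (hw' : w' ∈ zpowers u)
    (hw2' : orderOf w' = 2) : w = w' := by
  rw [(zp_eq hw hw2).2, (zp_eq hw' hw2').2]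

theorem conj_pow_u {x y : H} (hx : orderOf x = 2) (hy : orderOf y = 2) (m : ℕ) :
    ((x * y) ^ m)⁻¹ * x * (x * y) ^ m = x * (x * y) ^ (2 * m) := by
  have h1 := inv_zp hx hy (u := (x * y) ^ m) (pow_mem (mem_zpowers _) m)
  rw [inv2 hx] at h1
  rw [← h1]
  calc x * (x * y) ^ m * x * x * (x * y) ^ m = x * (x * y) ^ m * (x * x) * (x * y) ^ m := by group
    _ = x * (x * y) ^ (2 * m) := by rw [(ord2.1 hx).1, mul_one, two_mul, pow_add, mul_assoc]

/-- two involutions are conjugate or commute with a third one -/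
theorem dih [Finite H] {x y : H} (hx : orderOf x = 2) (hy : orderOf y = 2) :
    (∃ c ∈ zpowers (x * y), y = c * x * c⁻¹) ∨ (∃ w ∈ zpowers (x * y), orderOf w = 2) := by
  rcases Nat.even_or_odd (orderOf (x * y)) with h | h
  · right
    obtain ⟨k, hk⟩ := h
    have hpos := orderOf_pos (x * y)
    refine ⟨(x * y) ^ k, pow_mem (mem_zpowers _) k, ?_⟩
    rw [orderOf_pow_of_dvd (by omega) ⟨2, by omega⟩, hk]
    exact Nat.div_eq_of_eq_mul_left (by omega) (by omega)
  · left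
    obtain ⟨m, hm⟩ := h
    refine ⟨(x * y) ^ m, pow_mem (mem_zpowers _) m, ?_⟩
    have h1 := inv_zp hx hy (u := (x * y) ^ m) (pow_mem (mem_zpowers _) m)
    have h2 : (x * y) ^ m * x * ((x * y) ^ m)⁻¹ = x * ((x * y) ^ m)⁻¹ * ((x * y) ^ m)⁻¹ := by
      rw [← h1]
      have h3 : x⁻¹ = x := inv2 hx
      calc (x * y) ^ m * x * (x * (x * y) ^ m * x⁻¹) = (x * y) ^ m * (x * x) * ((x * y) ^ m * x⁻¹) := by group
        _ = (x * y) ^ m * (x * y) ^ m * x⁻¹ := by rw [(ord2.1 hx).1, mul_one, mul_assoc]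
        _ = x * (x * (x * y) ^ m * x⁻¹) * (x * (x * y) ^ m * x⁻¹) := by
          rw [h3]
          calc (x * y) ^ m * (x * y) ^ m * x = 1 * (x * y) ^ m * 1 * (x * y) ^ m * x := by group
            _ = (x * x) * (x * y) ^ m * (x * x) * (x * y) ^ m * x := by rw [(ord2.1 hx).1]
            _ = x * (x * (x * y) ^ m * x) * (x * (x * y) ^ m * x) := by group
    rw [h2]
    have h4 : x * y * ((x * y) ^ m * (x * y) ^ m) = 1 := by
      rw [← pow_add, ← pow_succ', ← two_mul, ← hm, pow_orderOf_eq_one]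
    have h5 : x * y = ((x * y) ^ m)⁻¹ * ((x * y) ^ m)⁻¹ := by
      rw [← mul_inv_rev]; exact eq_inv_of_mul_eq_one_left h4
    calc y = x * (x * y) := by rw [← mul_assoc, (ord2.1 hx).1, one_mul]
      _ = x * ((x * y) ^ m)⁻¹ * ((x * y) ^ m)⁻¹ := by rw [mul_assoc, ← h5]

/-- `x w` is conjugate to `x` or `y`; it is conjugate to `x` if the order of `x y` is divisible by `4` -/
theorem dih3 [Finite H] {x y w : H} (hx : orderOf x = 2) (hy : orderOf y = 2) (hw : w ∈ zpowers (x * y))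
    (hw2 : orderOf w = 2) :
    (4 ∣ orderOf (x * y) ∧ ∃ c ∈ zpowers (x * y), x * w = c⁻¹ * x * c) ∨
      (¬ 4 ∣ orderOf (x * y) ∧ ∃ c ∈ zpowers (x * y), x * w = c⁻¹ * y * c) := by
  obtain ⟨h1, h2⟩ := zp_eq hw hw2
  obtain ⟨k, hk⟩ := h1
  have hk2 : orderOf (x * y) / 2 = k := by omega
  rw [hk2] at h2
  rcases Nat.even_or_odd k with ⟨m, hm⟩ | ⟨m, hm⟩
  · left
    refine ⟨⟨m, by omega⟩, (x * y) ^ m, pow_mem (mem_zpowers _) m, ?_⟩
    rw [conj_pow_u hx hy m, h2, hm, two_mul]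
  · right
    refine ⟨fun h4 => by omega, (x * y) ^ m, pow_mem (mem_zpowers _) m, ?_⟩
    have h3 : y = x * (x * y) := by rw [← mul_assoc, (ord2.1 hx).1, one_mul]
    have h4' : ∀ z : H, z = x * (x * y) →
        ((x * y) ^ m)⁻¹ * z * (x * y) ^ m = (((x * y) ^ m)⁻¹ * x * (x * y) ^ m) * (x * y) := by
      rintro z rfl
      have h5 : (x * y) * (x * y) ^ m = (x * y) ^ m * (x * y) := by rw [← pow_succ, pow_succ']
      calc ((x * y) ^ m)⁻¹ * (x * (x * y)) * (x * y) ^ m = ((x * y) ^ m)⁻¹ * x * ((x * y) * (x * y) ^ m) := by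
            simp only [mul_assoc]
        _ = _ := by rw [h5]; simp only [mul_assoc]
    have h4 := h4' y h3
    rw [h4, conj_pow_u hx hy m, h2, hm, mul_assoc, ← pow_succ]

end Cfsg.Agent.H64.CI
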