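import Cfsg.Agent.H64.CI.A

/-! Coprime automorphisms centralizing the centralizer of an involution: good involutions. -/

set_option autoImplicit false

open scoped Pointwise commutatorElement
open Subgroup

namespace Cfsg.Agent.H64.CI

variable {H : Type*} [Group H]

/-- the `G`-conjugates of `a` -/
def Om (G : Subgroup H) (a : H) : Set H := {f | ∃ g ∈ G, f = g * a * g⁻¹}

/-- good involutions with the fixed point `b` -/
def Gd (G : Subgroup H) (b x : H) : Prop := x ∈ G ∧ orderOf x = 2 ∧ ∀ y ∈ G, y * x = x * y → y * b = b * y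

structure Ctx (G : Subgroup H) (a : H) (p : ℕ) : Prop where
  hp : p.Prime
  ord : orderOf a = p
  ndvd : ¬ p ∣ Nat.card G
  norm : a ∈ normalizer (G : Set H)

variable {G : Subgroup H} {a : H} {p : ℕ}

theorem mem_Om_self : a ∈ Om G a := ⟨1, G.one_mem, by group⟩

theorem conj_mem_Om {b g : H} (hb : b ∈ Om G a) (hg : g ∈ G) : g * b * g⁻¹ ∈ Om G a := by
  obtain ⟨x, hx, rfl⟩ := hb
  exact ⟨g * x, mul_mem hg hx, by group⟩

theorem conj_mem_Om' {b g : H} (hb : b ∈ Om G a) (hg : g ∈ G) : g⁻¹ * b * g ∈ Om G a := by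
  have := conj_mem_Om hb (inv_mem hg)
  rwa [inv_inv] at this

theorem Om_conj {b c : H} (hb : b ∈ Om G a) (hc : c ∈ Om G a) : ∃ g ∈ G, c = g * b * g⁻¹ := by
  obtain ⟨x, hx, rfl⟩ := hb
  obtain ⟨y, hy, rfl⟩ := hc
  exact ⟨y * x⁻¹, mul_mem hy (inv_mem hx), by group⟩

theorem Gd.conj {b x g : H} (h : Gd G b x) (hg : g ∈ G) : Gd G (g * b * g⁻¹) (g * x * g⁻¹) := by
  refine ⟨mul_mem (mul_mem hg h.1) (inv_mem hg), by rw [ord_conj]; exact h.2.1, ?_⟩
  intro y hy hc
  have h1 := h.2.2 (g⁻¹ * y * g) (mul_mem (mul_mem (inv_mem hg) hy) hg) (by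
    have h3 : g⁻¹ * (y * (g * x * g⁻¹)) * g = g⁻¹ * ((g * x * g⁻¹) * y) * g := by rw [hc]
    calc g⁻¹ * y * g * x = g⁻¹ * (y * (g * x * g⁻¹)) * g := by group
      _ = g⁻¹ * ((g * x * g⁻¹) * y) * g := h3
      _ = x * (g⁻¹ * y * g) := by group)
  calc y * (g * b * g⁻¹) = g * ((g⁻¹ * y * g) * b) * g⁻¹ := by group
    _ = g * (b * (g⁻¹ * y * g)) * g⁻¹ := by rw [h1]
    _ = g * b * g⁻¹ * y := by group

theorem Gd.conj' {b x g : H} (h : Gd G b x) (hg : g ∈ G) : Gd G (g⁻¹ * b * g) (g⁻¹ * x * g) := by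
  have := h.conj (inv_mem hg)
  rwa [inv_inv] at this

theorem Gd.comm {b x : H} (h : Gd G b x) : x * b = b * x := h.2.2 x h.1 rfl

namespace Ctx

variable (h : Ctx G a p)
include h

theorem of_mem {b : H} (hb : b ∈ Om G a) : Ctx G b p := by
  obtain ⟨g, hg, rfl⟩ := hb
  refine ⟨h.hp, by rw [ord_conj]; exact h.ord, h.ndvd, ?_⟩
  exact mul_mem (mul_mem (le_normalizer hg) h.norm) (inv_mem (le_normalizer hg))

variable [Finite H]

/-- conjugacy inside the centralizer of a subset -/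
theorem conjW {b f : H} (hb : b ∈ Om G a) (hf : f ∈ Om G a) (W : Set H) (hbW : ∀ w ∈ W, b * w = w * b)
    (hfW : ∀ w ∈ W, f * w = w * f) : ∃ c ∈ G, (∀ w ∈ W, c * w = w * c) ∧ f = c * b * c⁻¹ := by
  have hB := h.of_mem hb
  set R : Subgroup H := G ⊓ centralizer W with hR
  have hbc : b ∈ centralizer W := mem_centralizer_iff.2 fun w hw => (hbW w hw).symm
  have hfc : f ∈ centralizer W := mem_centralizer_iff.2 fun w hw => (hfW w hw).symm
  have hnorm : b ∈ normalizer (R : Set H) := by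
    apply mem_norm
    rintro x ⟨h1, h2⟩
    exact mem_inf.2 ⟨norm_conj hB.norm h1, mul_mem (mul_mem hbc h2) (inv_mem hbc)⟩
  have hR2 : ¬ p ∣ Nat.card R := fun h1 => h.ndvd (h1.trans (card_dvd_of_le inf_le_left))
  obtain ⟨g, hg, rfl⟩ := Om_conj hb hf
  have hfb : g * b * g⁻¹ * b⁻¹ ∈ R := by
    refine mem_inf.2 ⟨?_, mul_mem hfc (inv_mem hbc)⟩
    have h1 := norm_conj hB.norm (inv_mem hg)
    have h2 : g * b * g⁻¹ * b⁻¹ = g * (b * g⁻¹ * b⁻¹) := by group
    rw [h2]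
    exact mul_mem hg h1
  obtain ⟨r, hr, he⟩ := sy h.hp hB.ord hR2 hnorm hfb (by
    rw [conj_pow, ← hB.ord, pow_orderOf_eq_one]; group)
  exact ⟨r, hr.1, fun w hw => (mem_centralizer_iff.1 hr.2 w hw).symm, he⟩

theorem fix {b f x : H} (hb : b ∈ Om G a) (hf : f ∈ Om G a) (hx : Gd G b x) (hfx : f * x = x * f) : f = b := by
  obtain ⟨c, hc, hcW, rfl⟩ := h.conjW hb hf {x} (by rintro w rfl; exact hx.comm.symm) (by rintro w rfl; exact hfx)
  have h1 := hx.2.2 c hc (hcW x rfl)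
  rw [h1]; group

theorem eq_of_comm {b c x y : H} (hb : b ∈ Om G a) (hc : c ∈ Om G a) (hx : Gd G b x) (hy : Gd G c y)
    (hxy : x * y = y * x) : b = c := by
  have h1 := hx.2.2 y hy.1 hxy.symm
  exact h.fix hc hb hy h1.symm

/-- two commuting members of `Om` are equal -/
theorem om_comm {b f : H} (hb : b ∈ Om G a) (hf : f ∈ Om G a) (hbf : f * b = b * f) : f = b := by
  obtain ⟨c, hc, hcW, rfl⟩ := h.conjW hb hf {b} (by rintro w rfl; rfl) (by rintro w rfl; exact hbf)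
  rw [hcW b rfl]; group

end Ctx

/-- the minimal counterexample -/
structure MC (G : Subgroup H) (a : H) (p : ℕ) : Prop extends Ctx G a p where
  ih : ∀ X : Subgroup H, X < G → ∀ b x : H, orderOf b = p → b ∈ normalizer (X : Set H) → x ∈ X → orderOf x = 2 →
    (∀ y ∈ X, y * x = x * y → y * b = b * y) → Odd (Nat.card ↥⁅X, zpowers b⁆)
  nc : ∀ w ∈ G, orderOf w = 2 → ∃ y ∈ G, y * w ≠ w * y
  bad : ∀ b ∈ Om G a, ¬ Odd (Nat.card ↥⁅G, zpowers b⁆)
  ex : ∃ x, Gd G a x

/-- the commutator of `b` with the centralizer of `w` -/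
def Qd (G : Subgroup H) (w b : H) : Subgroup H := ⁅G ⊓ centralizer {w}, zpowers b⁆

theorem mem_C {w y : H} : y ∈ G ⊓ centralizer {w} ↔ y ∈ G ∧ y * w = w * y := by
  rw [mem_inf, mem_centralizer_singleton_iff]

theorem comm_norm [Finite H] {X : Subgroup H} {b : H} (hb : b ∈ normalizer (X : Set H)) :
    ⁅X, zpowers b⁆ ≤ X ∧ (∀ y ∈ X, y ∈ normalizer ((⁅X, zpowers b⁆ : Subgroup H) : Set H)) ∧
      b ∈ normalizer ((⁅X, zpowers b⁆ : Subgroup H) : Set H) := by
  have h1 : zpowers b ≤ normalizer (X : Set H) := by rwa [zpowers_le]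
  have h2 : ⁅X, zpowers b⁆ ≤ X := le_normalizer_iff_commutator_le_left.1 h1
  exact ⟨h2, fun y hy => normalizer_commutator_ge_left X (zpowers b) hy,
    normalizer_commutator_ge_right X (zpowers b) (mem_zpowers b)⟩

namespace MC

variable (h : MC G a p)
include h

theorem exb {b : H} (hb : b ∈ Om G a) : ∃ x, Gd G b x := by
  obtain ⟨x, hx⟩ := h.ex
  obtain ⟨g, hg, rfl⟩ := hb
  exact ⟨_, hx.conj hg⟩

variable [Finite H]

/-- the structure of the centralizer of an involution commuting with a good involution -/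
theorem cent {b w x : H} (hb : b ∈ Om G a) (hw : w ∈ G) (hw2 : orderOf w = 2) (hx : Gd G b x)
    (hwx : w * x = x * w) :
    w * b = b * w ∧ Odd (Nat.card (Qd G w b)) ∧ (∀ q ∈ Qd G w b, q ∈ G ∧ q * w = w * q) ∧
      (∀ y ∈ G, y * w = w * y → y ∈ normalizer ((Qd G w b : Subgroup H) : Set H)) ∧
      b ∈ normalizer ((Qd G w b : Subgroup H) : Set H) ∧
      (∀ y ∈ G, y * w = w * y → y * b * y⁻¹ * b⁻¹ ∈ Qd G w b) ∧
      (∀ f ∈ Om G a, f * w = w * f → ∃ q ∈ Qd G w b, f = q * b * q⁻¹) := by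
  have hB := h.toCtx.of_mem hb
  have hwb := hx.2.2 w hw hwx
  have hbn : b ∈ normalizer ((G ⊓ centralizer {w} : Subgroup H) : Set H) := by
    apply mem_norm
    intro y hy
    rw [mem_C] at hy ⊢
    refine ⟨norm_conj hB.norm hy.1, ?_⟩
    calc b * y * b⁻¹ * w = b * (y * w) * b⁻¹ := by
          have : b⁻¹ * w = w * b⁻¹ := by
            rw [inv_mul_eq_iff_eq_mul, ← mul_assoc, ← hwb]; group
          rw [mul_assoc, this]; group
      _ = b * (w * y) * b⁻¹ := by rw [hy.2]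
      _ = w * (b * y * b⁻¹) := by
          have : b * w = w * b := hwb.symm
          calc b * (w * y) * b⁻¹ = (b * w) * y * b⁻¹ := by group
            _ = w * (b * y * b⁻¹) := by rw [this]; group
  have hlt : G ⊓ centralizer {w} < G := by
    refine lt_of_le_of_ne inf_le_left ?_
    intro he
    obtain ⟨y, hy, hyw⟩ := h.nc w hw hw2
    rw [← he, mem_C] at hy
    exact hyw hy.2
  obtain ⟨c1, c2, c3⟩ := comm_norm hbn
  have hodd : Odd (Nat.card (Qd G w b)) := by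
    apply h.ih _ hlt b x hB.ord hbn (mem_C.2 ⟨hx.1, hwx.symm⟩) hx.2.1
    intro y hy hyx
    exact hx.2.2 y (mem_C.1 hy).1 hyx
  have hcomm : ∀ y ∈ G, y * w = w * y → y * b * y⁻¹ * b⁻¹ ∈ Qd G w b := by
    intro y hy hyw
    exact commutator_mem_commutator (mem_C.2 ⟨hy, hyw⟩) (mem_zpowers b)
  refine ⟨hwb, hodd, fun q hq => mem_C.1 (c1 hq), fun y hy hyw => c2 y (mem_C.2 ⟨hy, hyw⟩), c3, hcomm, ?_⟩
  intro f hf hfw
  obtain ⟨c, hc, hcW, rfl⟩ := h.toCtx.conjW hb hf {w} (by rintro w rfl; exact hwb.symm) (by rintro w rfl; exact hfw)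
  refine sy h.hp hB.ord ?_ c3 (hcomm c hc (hcW w rfl)) (by
    rw [conj_pow, ← hB.ord, pow_orderOf_eq_one]; group)
  intro hd
  exact h.ndvd (hd.trans (card_dvd_of_le (c1.trans inf_le_left)))

/-- an involution commuting with a good one moves a point -/
theorem moves {b e x : H} (hb : b ∈ Om G a) (he : e ∈ G) (he2 : orderOf e = 2) (hx : Gd G b x)
    (hex : e * x = x * e) : ∃ f ∈ Om G a, f * e ≠ e * f := by
  by_contra hcon
  push Not at hcon
  have hB := h.toCtx.of_mem hb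
  obtain ⟨c1, c2, c3, c4, c5, c6, -⟩ := h.cent hb he he2 hx hex
  apply h.bad b hb
  have hcop : (Nat.card (zpowers b)).Coprime (Nat.card G) := by
    rw [Nat.card_zpowers, hB.ord]
    exact (Nat.Prime.coprime_iff_not_dvd h.hp).2 h.ndvd
  have hAG : zpowers b ≤ normalizer (G : Set H) := by rw [zpowers_le]; exact hB.norm
  haveI : Group.IsSolvable (zpowers b) := inferInstance
  have h1 := Cop.commutator_commutator_eq hAG hcop (Or.inl inferInstance)
  have h2 : ⁅G, zpowers b⁆ ≤ G ⊓ centralizer {e} := by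
    rw [commutator_le]
    intro g hg z hz
    obtain ⟨i, rfl⟩ := mem_zpowers_iff.1 hz
    rw [mem_C]
    have h3 : ⁅g, b ^ i⁆ = (g * b * g⁻¹) ^ i * (b ^ i)⁻¹ := by rw [commutatorElement_def, conj_zpow]
    refine ⟨?_, ?_⟩
    · have h4 : ⁅g, b ^ i⁆ = g * (b ^ i * g⁻¹ * (b ^ i)⁻¹) := by rw [commutatorElement_def]; group
      rw [h4]
      exact mul_mem hg (norm_conj ((normalizer (G : Set H)).zpow_mem hB.norm i) (inv_mem hg))
    · rw [h3]
      have h5 : Commute (g * b * g⁻¹) e := hcon _ (conj_mem_Om hb hg)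
      have h6 : Commute b e := hcon _ hb
      exact (h5.zpow_left i).mul_left ((h6.zpow_left i).inv_left)
  rw [← h1]
  exact c2.of_dvd_nat (card_dvd_of_le (commutator_mono h2 le_rfl))

end MC

end Cfsg.Agent.H64.CI
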