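import Cfsg.Agent.H64.CI.B

/-! Coprime automorphisms centralizing the centralizer of an involution: the counting argument. -/

set_option autoImplicit false

open scoped Pointwise commutatorElement
open Subgroup

namespace Cfsg.Agent.H64.CI

variable {H : Type*} [Group H]

theorem pow_coset {Q : Subgroup H} {u v : H} (hu : u ∈ normalizer (Q : Set H)) (hv : v * u⁻¹ ∈ Q) (k : ℕ) :
    v ^ k * (u ^ k)⁻¹ ∈ Q := by
  induction k with
  | zero => simp
  | succ k ih =>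
    have h1 : v ^ (k + 1) * (u ^ (k + 1))⁻¹ = (v ^ k * (u ^ k)⁻¹) * (u ^ k * (v * u⁻¹) * (u ^ k)⁻¹) := by
      rw [pow_succ, pow_succ]; group
    rw [h1]
    exact mul_mem ih (norm_conj (pow_mem hu k) hv)

/-- involutions of a group of odd order extended by an involution -/
theorem inv_in_coset [Finite H] {R : Subgroup H} (hodd : Odd (Nat.card R)) {e y : H} (he2 : orderOf e = 2)
    (hen : e ∈ normalizer (R : Set H)) (hy : y * e⁻¹ ∈ R) :
    ∃ r ∈ R, r * e * r⁻¹ ∈ zpowers y := by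
  obtain ⟨k, hk⟩ := hodd
  have hyn : y ∈ normalizer (R : Set H) := by
    have h1 : y = (y * e⁻¹) * e := by group
    rw [h1]; exact mul_mem (le_normalizer hy) hen
  have hyy : y * y ∈ R := by
    have h1 : y * y = (y * e⁻¹) * (e * (y * e⁻¹) * e⁻¹) * (e * e) := by group
    rw [h1, (ord2.1 he2).1, mul_one]
    exact mul_mem hy (norm_conj hen hy)
  have h1 : y ^ Nat.card R * e⁻¹ ∈ R := by
    rw [hk, pow_succ, pow_mul, pow_two, mul_assoc]
    exact mul_mem (pow_mem hyy k) hy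
  have h2 : (y ^ Nat.card R) ^ 2 = 1 := by
    rw [← pow_mul, mul_comm, pow_mul, pow_two]
    have h3 : (⟨y * y, hyy⟩ : R) ^ Nat.card R = 1 := pow_card_eq_one'
    exact congrArg Subtype.val h3
  have h2R : ¬ 2 ∣ Nat.card R := by omega
  obtain ⟨r, hr, he⟩ := sy Nat.prime_two he2 h2R hen h1 h2
  exact ⟨r, hr, by rw [← he]; exact pow_mem (mem_zpowers y) _⟩

variable {G : Subgroup H} {a : H} {p : ℕ}

namespace MC

variable [Finite H]

theorem transport (h : MC G a p) {e b : H} (he : e ∈ G) (he2 : orderOf e = 2)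
    (hbad : ∀ c ∈ Om G a, ¬ Gd G c e) (hb : b ∈ Om G a) (hbe : b * e ≠ e * b) :
    ∃ c ∈ Om G a, c * e = e * c ∧ ∀ t, Gd G c t → ∃ w ∈ zpowers (t * e), orderOf w = 2 ∧
      ∀ d ∈ Om G a, ¬ Gd G d w := by
  classical
  have step1 : ∀ t, Gd G b t → ∃ w, w ∈ zpowers (t * e) ∧ orderOf w = 2 ∧ w ∈ G ∧ w * t = t * w ∧
      w * e = e * w ∧ ∀ d ∈ Om G a, ¬ Gd G d w := by
    intro t ht
    have hle : zpowers (t * e) ≤ G := by rw [zpowers_le]; exact mul_mem ht.1 he
    rcases dih ht.2.1 he2 with ⟨c, hc, hce⟩ | ⟨w, hw, hw2⟩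
    · exfalso
      apply hbad (c * b * c⁻¹) (conj_mem_Om hb (hle hc))
      rw [hce]
      exact ht.conj (hle hc)
    · obtain ⟨h1, h2⟩ := comm_of_zp ht.2.1 he2 hw hw2
      refine ⟨w, hw, hw2, hle hw, h1, h2, ?_⟩
      intro d hd hdw
      have h3 := h.toCtx.eq_of_comm hb hd ht hdw h1.symm
      rw [← h3] at hdw
      exact hbe (hdw.2.2 e he h2.symm).symm
  choose! wf w1 w2 w3 w4 w5 w6 using step1
  set W : Set H := {w | ∃ t, Gd G b t ∧ wf t = w} with hW
  obtain ⟨t0, ht0⟩ := h.exb hb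
  have hbW : ∀ w ∈ W, b * w = w * b := by
    rintro w ⟨t, ht, rfl⟩
    exact (ht.2.2 _ (w3 t ht) (w4 t ht)).symm
  have heW : ∀ w ∈ W, e * w = w * e := by
    rintro w ⟨t, ht, rfl⟩
    exact (w5 t ht).symm
  obtain ⟨-, d2, d3, d4, d5, d6, -⟩ := h.cent hb (w3 t0 ht0) (w2 t0 ht0) ht0 (w4 t0 ht0)
  set Q := Qd G (wf t0) b with hQ
  set R : Subgroup H := Q ⊓ centralizer W with hR
  have hRodd : Odd (Nat.card R) := d2.of_dvd_nat (card_dvd_of_le inf_le_left)
  have hnc : ∀ y : H, y ∈ normalizer (Q : Set H) → (∀ w ∈ W, y * w = w * y) → y ∈ normalizer (R : Set H) := by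
    intro y hy hyW
    apply mem_norm
    rintro x ⟨h1, h2⟩
    have hyc : y ∈ centralizer W := mem_centralizer_iff.2 fun w hw => (hyW w hw).symm
    exact mem_inf.2 ⟨norm_conj hy h1, mul_mem (mul_mem hyc h2) (inv_mem hyc)⟩
  have hbR := hnc b d5 hbW
  have heR := hnc e (d4 e he (w5 t0 ht0).symm) heW
  have hB := h.toCtx.of_mem hb
  have hRG : R ≤ G := fun x hx => (d3 x hx.1).1
  have hf : e * b * e⁻¹ * b⁻¹ ∈ R := by
    refine mem_inf.2 ⟨d6 e he (w5 t0 ht0).symm, ?_⟩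
    have hec : e ∈ centralizer W := mem_centralizer_iff.2 fun w hw => (heW w hw).symm
    have hbc : b ∈ centralizer W := mem_centralizer_iff.2 fun w hw => (hbW w hw).symm
    exact mul_mem (mul_mem (mul_mem hec hbc) (inv_mem hec)) (inv_mem hbc)
  obtain ⟨r, hr, hre⟩ := sy h.hp hB.ord (fun hd => h.ndvd (hd.trans (card_dvd_of_le hRG))) hbR hf (by
    rw [conj_pow, ← hB.ord, pow_orderOf_eq_one]; group)
  obtain ⟨s, hs, hs'⟩ := inv_in_coset hRodd he2 heR (y := r⁻¹ * e) (by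
    rw [mul_inv_cancel_right]; exact inv_mem hr)
  have hyb : Commute (r⁻¹ * e) b := by
    show r⁻¹ * e * b = b * (r⁻¹ * e)
    calc r⁻¹ * e * b = r⁻¹ * (e * b * e⁻¹) * e := by group
      _ = r⁻¹ * (r * b * r⁻¹) * e := by rw [hre]
      _ = b * (r⁻¹ * e) := by group
  have hsb : Commute (s * e * s⁻¹) b := by
    obtain ⟨i, hi⟩ := mem_zpowers_iff.1 hs'
    rw [← hi]
    exact hyb.zpow_left i
  set c := s⁻¹ * b * s with hc
  have hcO : c ∈ Om G a := conj_mem_Om' hb (hRG hs)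
  have hce : c * e = e * c := by
    have h1 : s * e * s⁻¹ * b = b * (s * e * s⁻¹) := hsb
    calc c * e = s⁻¹ * (b * (s * e * s⁻¹)) * s := by rw [hc]; group
      _ = s⁻¹ * (s * e * s⁻¹ * b) * s := by rw [h1]
      _ = e * c := by rw [hc]; group
  have hcW : ∀ w ∈ W, c * w = w * c := by
    intro w hw
    have h1 : Commute s w := (mem_centralizer_iff.1 hs.2 w hw).symm
    have h2 : Commute b w := hbW w hw
    exact ((h1.inv_left.mul_left h2).mul_left h1)
  have step3 : ∀ w ∈ W, ∃ q, q ∈ Qd G w b ∧ c = q * b * q⁻¹ := by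
    rintro w ⟨t, ht, rfl⟩
    obtain ⟨-, -, -, -, -, -, d7⟩ := h.cent hb (w3 t ht) (w2 t ht) ht (w4 t ht)
    obtain ⟨q, hq, hq'⟩ := d7 c hcO (hcW _ ⟨t, ht, rfl⟩)
    exact ⟨q, hq, hq'⟩
  choose! qf q1 q2 using step3
  set φ : H → H := fun t => qf (wf t) * t * (qf (wf t))⁻¹ with hφ
  have hqG : ∀ t, Gd G b t → qf (wf t) ∈ G ∧ qf (wf t) * wf t = wf t * qf (wf t) := by
    intro t ht
    obtain ⟨-, -, e3, -⟩ := h.cent hb (w3 t ht) (w2 t ht) ht (w4 t ht)
    exact e3 _ (q1 _ ⟨t, ht, rfl⟩)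
  have hφG : ∀ t, Gd G b t → Gd G c (φ t) := by
    intro t ht
    have h1 := ht.conj (hqG t ht).1
    rwa [← q2 (wf t) ⟨t, ht, rfl⟩] at h1
  have hφw : ∀ t, Gd G b t → wf t ∈ zpowers (φ t * e) := by
    intro t ht
    obtain ⟨-, e2, e3, e4, -, -, -⟩ := h.cent hb (w3 t ht) (w2 t ht) ht (w4 t ht)
    set q := qf (wf t) with hq
    set w := wf t with hw
    set Q' := Qd G w b with hQ'
    have hqQ : q ∈ Q' := q1 w ⟨t, ht, rfl⟩
    have htn := e4 t ht.1 (w4 t ht).symm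
    have hen := e4 e he (w5 t ht).symm
    have hun := mul_mem htn hen
    have hv : (q * t * q⁻¹ * e) * (t * e)⁻¹ ∈ Q' := by
      have h1 : (q * t * q⁻¹ * e) * (t * e)⁻¹ = q * (t * q⁻¹ * t⁻¹) := by group
      rw [h1]
      exact mul_mem hqQ (norm_conj htn (inv_mem hqQ))
    have hw' := w1 t ht
    rw [← mem_powers_iff_mem_zpowers] at hw'
    obtain ⟨k, hk⟩ := hw'
    have hk : (t * e) ^ k = w := hk
    have h2 := pow_coset hun hv k
    rw [hk] at h2
    set x := (q * t * q⁻¹ * e) ^ k * w⁻¹ with hx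
    have h3 : (q * t * q⁻¹ * e) ^ k = x * w := by rw [hx]; group
    have h4 : Commute x w := (e3 x h2).2
    have h5 : x ^ Nat.card Q' = 1 := by
      have h6 : (⟨x, h2⟩ : Q') ^ Nat.card Q' = 1 := pow_card_eq_one'
      exact congrArg Subtype.val h6
    obtain ⟨m, hm⟩ := e2
    have h7 : w ^ Nat.card Q' = w := by
      rw [hm, pow_succ, pow_mul, pow_two, (ord2.1 (w2 t ht)).1, one_pow, one_mul]
    have h8 : (q * t * q⁻¹ * e) ^ (k * Nat.card Q') = w := by
      rw [pow_mul, h3, h4.mul_pow, h5, h7, one_mul]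
    rw [← h8]
    exact pow_mem (mem_zpowers _) _
  have hinj : Set.InjOn φ {t | Gd G b t} := by
    intro t ht t' ht' heq
    have h1 := hφw t ht
    have h2 := hφw t' ht'
    rw [← heq] at h2
    have h3 := zp_uniq h1 (w2 t ht) h2 (w2 t' ht')
    have heq' : qf (wf t) * t * (qf (wf t))⁻¹ = qf (wf t') * t' * (qf (wf t'))⁻¹ := heq
    rw [← h3] at heq'
    exact mul_left_cancel (mul_right_cancel heq')
  have hmaps : Set.MapsTo φ {t | Gd G b t} {t | Gd G c t} := fun t ht => hφG t ht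
  have hcard : ({t | Gd G c t} : Set H).ncard ≤ ({t | Gd G b t} : Set H).ncard := by
    have hsub : ({t | Gd G c t} : Set H) ⊆ (fun t => s⁻¹ * t * s) '' {t | Gd G b t} := by
      intro t ht
      refine ⟨s * t * s⁻¹, ?_, by group⟩
      have h1 := Gd.conj (g := s) ht (hRG hs)
      have h2 : s * c * s⁻¹ = b := by rw [hc]; group
      rw [h2] at h1
      exact h1
    exact (Set.ncard_le_ncard hsub (Set.toFinite _)).trans (Set.ncard_image_le (Set.toFinite _))
  have hsurj : Set.SurjOn φ {t | Gd G b t} {t | Gd G c t} := by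
    have h1 : φ '' {t | Gd G b t} = {t | Gd G c t} :=
      Set.eq_of_subset_of_ncard_le hmaps.image_subset (by rwa [hinj.ncard_image]) (Set.toFinite _)
    rw [Set.SurjOn, h1]
  refine ⟨c, hcO, hce, fun t ht => ?_⟩
  obtain ⟨t', ht', rfl⟩ := hsurj ht
  exact ⟨wf t', hφw t' ht', w2 t' ht', w6 t' ht'⟩

end MC

end Cfsg.Agent.H64.CI
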