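import Cfsg.Agent.H64.CI.C
import Cfsg.Agent.H4.Final

/-! Coprime automorphisms centralizing the centralizer of an involution: all involutions are good. -/

set_option autoImplicit false

open scoped Pointwise commutatorElement
open Subgroup

namespace Cfsg.Agent.H64.CI

variable {H : Type*} [Group H] [Finite H] {G : Subgroup H} {a : H} {p : ℕ}

theorem even_w {u : H} (h : Even (orderOf u)) : ∃ w ∈ zpowers u, orderOf w = 2 := by
  obtain ⟨k, hk⟩ := h
  have hpos := orderOf_pos u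
  refine ⟨u ^ k, pow_mem (mem_zpowers _) k, ?_⟩
  rw [orderOf_pow_of_dvd (by omega) ⟨2, by omega⟩, hk]
  exact Nat.div_eq_of_eq_mul_left (by omega) (by omega)

namespace MC

/-- products of commuting good involutions are good -/
theorem star (h : MC G a p) {b x y : H} (hb : b ∈ Om G a) (hx : Gd G b x) (hy : Gd G b y) (hne : x ≠ y)
    (hxy : x * y = y * x) : Gd G b (x * y) := by
  by_contra hbad
  obtain ⟨e, he⟩ : ∃ e, e = x * y := ⟨_, rfl⟩
  rw [← he] at hbad
  have heG : e ∈ G := by rw [he]; exact mul_mem hx.1 hy.1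
  have he2 : orderOf e = 2 := by
    rw [ord2]
    refine ⟨?_, fun h1 => hne ?_⟩
    · calc e * e = x * (y * x) * y := by rw [he]; group
        _ = (x * x) * (y * y) := by rw [← hxy]; group
        _ = 1 := by rw [(ord2.1 hx.2.1).1, (ord2.1 hy.2.1).1, one_mul]
    · rw [he] at h1
      rw [eq_inv_of_mul_eq_one_left h1, inv2 hy.2.1]
  have hxe : x * e = e * x := by
    rw [he]; rw [mul_assoc x y x, ← hxy]
  have hbad' : ∀ c ∈ Om G a, ¬ Gd G c e := by
    intro c hc hce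
    have h1 := h.toCtx.eq_of_comm hb hc hx hce hxe
    rw [← h1] at hce
    exact hbad hce
  obtain ⟨f, hf, hfe⟩ := h.moves hb heG he2 hx hxe.symm
  obtain ⟨c, hc, hce, hT⟩ := h.transport heG he2 hbad' hf hfe
  have hbe : b * e = e * b := by
    have h1 : Commute x b := hx.comm
    have h2 : Commute y b := hy.comm
    rw [he]
    exact (h1.mul_left h2).eq.symm
  obtain ⟨g, hg, hgW, rfl⟩ := h.toCtx.conjW hb hc {e} (by rintro w rfl; exact hbe) (by rintro w rfl; exact hce)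
  obtain ⟨w, hw, hw2, hwb⟩ := hT _ (hx.conj hg)
  have h1 : g * x * g⁻¹ * e = g * y * g⁻¹ := by
    have h2 := hgW e rfl
    have h3 : g⁻¹ * e = e * g⁻¹ := by
      rw [inv_mul_eq_iff_eq_mul, ← mul_assoc, h2]; group
    rw [mul_assoc, h3]
    calc g * x * (e * g⁻¹) = g * (x * x) * y * g⁻¹ := by rw [he]; group
      _ = g * y * g⁻¹ := by rw [(ord2.1 hx.2.1).1, mul_one]
  rw [h1] at hw
  have h2 := hy.conj hg
  have h3 := zp_uniq hw hw2 (mem_zpowers _) h2.2.1
  rw [h3] at hwb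
  exact hwb _ hc h2

/-- every involution commutes with a good one -/
theorem comm_good (h : MC G a p) {e : H} (he : e ∈ G) (he2 : orderOf e = 2) :
    ∃ b ∈ Om G a, ∃ x, Gd G b x ∧ x * e = e * x := by
  obtain ⟨t, ht⟩ := h.ex
  have hle : zpowers (t * e) ≤ G := by rw [zpowers_le]; exact mul_mem ht.1 he
  rcases dih ht.2.1 he2 with ⟨c, hc, hce⟩ | ⟨w, hw, hw2⟩
  · exact ⟨c * a * c⁻¹, conj_mem_Om mem_Om_self (hle hc), e, by rw [hce]; exact ht.conj (hle hc), rfl⟩
  obtain ⟨h1, h2⟩ := comm_of_zp ht.2.1 he2 hw hw2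
  have htw : t * (t * w) = (t * w) * t := by rw [mul_assoc t w t, h1]
  rcases dih3 ht.2.1 he2 hw hw2 with ⟨-, c, hc, hcw⟩ | ⟨-, c, hc, hcw⟩
  · have h3 := ht.conj' (hle hc)
    rw [← hcw] at h3
    have h4 := h.toCtx.eq_of_comm mem_Om_self (conj_mem_Om' mem_Om_self (hle hc)) ht h3 htw
    rw [← h4] at h3
    have hne : t ≠ t * w := by
      intro h5
      exact (ord2.1 hw2).2 (mul_eq_left.1 h5.symm)
    have h5 := h.star mem_Om_self ht h3 hne htw
    rw [← mul_assoc, (ord2.1 ht.2.1).1, one_mul] at h5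
    exact ⟨a, mem_Om_self, w, h5, h2⟩
  · refine ⟨c * a * c⁻¹, conj_mem_Om mem_Om_self (hle hc), c * t * c⁻¹, ht.conj (hle hc), ?_⟩
    rw [hcw] at htw
    calc c * t * c⁻¹ * e = c * (t * (c⁻¹ * e * c)) * c⁻¹ := by group
      _ = c * ((c⁻¹ * e * c) * t) * c⁻¹ := by rw [htw]
      _ = e * (c * t * c⁻¹) := by group

/-- an involution commuting with two distinct commuting good involutions is good -/
theorem four (h : MC G a p) {b x y e : H} (hb : b ∈ Om G a) (hx : Gd G b x) (hy : Gd G b y) (hne : x ≠ y)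
    (hxy : x * y = y * x) (he : e ∈ G) (he2 : orderOf e = 2) (hex : e * x = x * e) (hey : e * y = y * e) :
    Gd G b e := by
  obtain ⟨c1, c2, c3, c4, c5, -, c7⟩ := h.cent hb he he2 hx hex
  set Q := Qd G e b with hQ
  have hv := h.star hb hx hy hne hxy
  have key : ∀ q ∈ Q, q * b * q⁻¹ = b := by
    intro q hq
    have hqG := (c3 q hq).1
    have hs := hx.conj hqG
    have hxn := c4 x hx.1 hex.symm
    have hyn := c4 y hy.1 hey.symm
    obtain ⟨r, hr, hrw⟩ := inv_in_coset c2 hy.2.1 hyn (y := (q * x * q⁻¹) * (x * y)) (by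
      have h1 : (q * x * q⁻¹) * (x * y) * y⁻¹ = q * (x * q⁻¹ * x⁻¹) * (x * x) := by group
      rw [h1, (ord2.1 hx.2.1).1, mul_one]
      exact mul_mem hq (norm_conj hxn (inv_mem hq)))
    have hrG := (c3 r hr).1
    have hw := hy.conj hrG
    obtain ⟨h1, h2⟩ := comm_of_zp hs.2.1 hv.2.1 hrw hw.2.1
    have h3 := h.toCtx.eq_of_comm (conj_mem_Om hb hqG) (conj_mem_Om hb hrG) hs hw h1.symm
    have h4 := h.toCtx.eq_of_comm hb (conj_mem_Om hb hrG) hv hw h2.symm
    rw [h3, ← h4]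
  refine ⟨he, he2, ?_⟩
  intro z hz hze
  have hfe : z * b * z⁻¹ * e = e * (z * b * z⁻¹) := by
    have h1 : Commute z e := hze
    have h2 : Commute b e := c1.symm
    exact ((h1.mul_left h2).mul_left h1.inv_left)
  obtain ⟨q, hq, hq'⟩ := c7 _ (conj_mem_Om hb hz) hfe
  rw [key q hq, mul_inv_eq_iff_eq_mul] at hq'
  exact hq'

end MC

/-- the normal version -/
structure MC2 (G : Subgroup H) (a : H) (p : ℕ) : Prop extends MC G a p where
  nG : G.Normal
  gen : ∀ y : H, ∃ g ∈ G, ∃ i : ℤ, y = g * a ^ i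
  odd : ∀ N : Subgroup H, N.Normal → N ≤ G → Odd (Nat.card N) → N = ⊥

namespace MC2

theorem exists_other (h : MC2 G a p) {b x : H} (hb : b ∈ Om G a) (hx : Gd G b x) :
    ∃ x', Gd G b x' ∧ x' ≠ x ∧ x' * x = x * x' := by
  by_contra hcon
  push Not at hcon
  have hoc : H4.OddComm (⟨x, hx.1⟩ : G) := by
    intro g
    by_contra hev
    rw [Nat.not_odd_iff_even] at hev
    have h1 : orderOf ((⟨x, hx.1⟩ : G) * g * (⟨x, hx.1⟩ : G)⁻¹ * g⁻¹) = orderOf (x * ((g : H) * x * (g : H)⁻¹)) := by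
      rw [← Subgroup.orderOf_coe]
      congr 1
      show x * (g : H) * x⁻¹ * (g : H)⁻¹ = _
      rw [inv2 hx.2.1]; group
    rw [h1] at hev
    obtain ⟨w, hw, hw2⟩ := even_w hev
    have hy := hx.conj g.2
    obtain ⟨h2, h3⟩ := comm_of_zp hx.2.1 hy.2.1 hw hw2
    have hle : zpowers (x * ((g : H) * x * (g : H)⁻¹)) ≤ G := by
      rw [zpowers_le]; exact mul_mem hx.1 hy.1
    have hxw : x * (x * w) = (x * w) * x := by rw [mul_assoc x w x, h2]
    have hne : x * w ≠ x := by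
      intro h5
      exact (ord2.1 hw2).2 (mul_eq_left.1 h5)
    have h4 : ∃ k ∈ G, Gd G (k * b * k⁻¹) (x * w) := by
      rcases dih3 hx.2.1 hy.2.1 hw hw2 with ⟨-, c, hc, hcw⟩ | ⟨-, c, hc, hcw⟩
      · refine ⟨c⁻¹, inv_mem (hle hc), ?_⟩
        rw [hcw, inv_inv]
        exact hx.conj' (hle hc)
      · refine ⟨c⁻¹ * g, mul_mem (inv_mem (hle hc)) g.2, ?_⟩
        have h6 := hx.conj (mul_mem (inv_mem (hle hc)) g.2)
        rw [hcw]
        have h7 : c⁻¹ * ((g : H) * x * (g : H)⁻¹) * c = c⁻¹ * (g : H) * x * (c⁻¹ * (g : H))⁻¹ := by group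
        rw [h7]
        exact h6
    obtain ⟨k, hk, hkw⟩ := h4
    have h5 := h.toCtx.eq_of_comm hb (conj_mem_Om hb hk) hx hkw hxw
    rw [← h5] at hkw
    exact hcon _ hkw hne hxw.symm
  have hx2 : orderOf (⟨x, hx.1⟩ : G) = 2 := by rw [← Subgroup.orderOf_coe]; exact hx.2.1
  have hz := H4.zstar hx2 hoc
  have hn := h.nG
  have hbot : (Cfsg.pPrimeCore 2 G).map G.subtype = ⊥ := by
    apply h.odd _ inferInstance (Subgroup.map_subtype_le _)
    rw [Cop.card_map_subtype]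
    exact H4.odd_card_pPrimeCore_two
  obtain ⟨y, hy, hyx⟩ := h.nc x hx.1 hx.2.1
  have h1 := hz ⟨y, hy⟩
  have h2 : x * y * x⁻¹ * y⁻¹ ∈ (Cfsg.pPrimeCore 2 G).map G.subtype := ⟨_, h1, rfl⟩
  rw [hbot, mem_bot, mul_inv_eq_one, mul_inv_eq_iff_eq_mul] at h2
  exact hyx h2.symm

end MC2

end Cfsg.Agent.H64.CI
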