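import Cfsg.Agent.H64.CI.D

/-! Coprime automorphisms centralizing the centralizer of an involution: the transitive action. -/

set_option autoImplicit false

open scoped Pointwise commutatorElement
open Subgroup

universe u

namespace Cfsg.Agent.H64.CI

/-- the part of Bender's theorem that we need -/
def BT : Prop :=
  ∀ (G : Type u) (Ω : Type u) [Group G] [Finite G] [MulAction G Ω],
    (∀ a b : Ω, ∃ g : G, g • a = b) → (∀ t : G, orderOf t = 2 → ∃! x : Ω, t • x = x) → (∃ a b : Ω, a ≠ b) →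
    (∃ t : G, orderOf t = 2) → (∃ s t : G, orderOf s = 2 ∧ orderOf t = 2 ∧ s ≠ t ∧ s * t = t * s) →
    (∀ g : G, (∀ x : Ω, g • x = x) → g = 1) →
    ∀ a b c : Ω, b ≠ a → c ≠ a → ∃ s : G, s • a = a ∧ (∃ j : ℕ, s ^ 2 ^ j = 1) ∧ s • b = c

variable {H : Type u} [Group H] [Finite H] {G : Subgroup H} {a : H} {p : ℕ}

theorem pow_two_of_mem_sylow {A : Type*} [Group A] (S : Sylow 2 A) {z : A} (hz : z ∈ S) :
    ∃ j : ℕ, z ^ 2 ^ j = 1 := by
  obtain ⟨j, hj⟩ := S.2 ⟨z, hz⟩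
  exact ⟨j, congrArg Subtype.val hj⟩

namespace MC2

theorem all_good (h : MC2 G a p) {e : H} (he : e ∈ G) (he2 : orderOf e = 2) : ∃ b ∈ Om G a, Gd G b e := by
  classical
  haveI : Fact (Nat.Prime 2) := ⟨Nat.prime_two⟩
  by_contra hbad'
  have hbad : ∀ b ∈ Om G a, ¬ Gd G b e := fun b hb hbe => hbad' ⟨b, hb, hbe⟩
  obtain ⟨b, hb, x, hx, hxe⟩ := h.toMC.comm_good he he2
  obtain ⟨f, hf, hfe⟩ := h.toMC.moves hb he he2 hx hxe.symm
  obtain ⟨c, hc, hce, hT⟩ := h.toMC.transport he he2 hbad hf hfe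
  obtain ⟨x0, hx0⟩ := h.toMC.exb hc
  obtain ⟨x1, hx1, hne, hcomm⟩ := h.exists_other hc hx0
  set A : Subgroup H := G ⊓ centralizer {c} with hA
  have hx0A : x0 ∈ A := mem_C.2 ⟨hx0.1, hx0.comm⟩
  have hx1A : x1 ∈ A := mem_C.2 ⟨hx1.1, hx1.comm⟩
  have heA : e ∈ A := mem_C.2 ⟨he, hce.symm⟩
  have hpg : ∀ z : A, orderOf (z : H) = 2 → IsPGroup 2 (zpowers z) := by
    intro z hz
    apply IsPGroup.of_card (n := 1)
    rw [Nat.card_zpowers, ← Subgroup.orderOf_coe, hz, pow_one]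
  have hV : IsPGroup 2 (zpowers (⟨x0, hx0A⟩ : A) ⊔ zpowers (⟨x1, hx1A⟩ : A) : Subgroup A) := by
    apply IsPGroup.to_sup_of_normal_right' (hpg _ hx0.2.1) (hpg _ hx1.2.1)
    rw [zpowers_le]
    apply mem_norm
    intro y hy
    obtain ⟨i, rfl⟩ := mem_zpowers_iff.1 hy
    have h1 : Commute (⟨x0, hx0A⟩ : A) ⟨x1, hx1A⟩ := Subtype.ext hcomm.symm
    have h2 := h1.zpow_right i
    rw [h2.eq, mul_inv_cancel_right]
    exact zpow_mem (mem_zpowers _) i
  obtain ⟨S1, hS1⟩ := hV.exists_le_sylow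
  obtain ⟨S2, hS2⟩ := (hpg (⟨e, heA⟩ : A) he2).exists_le_sylow
  obtain ⟨g, hg⟩ := MulAction.exists_smul_eq A S2 S1
  have heS : g * (⟨e, heA⟩ : A) * g⁻¹ ∈ (S1 : Subgroup A) := by
    rw [← hg, Sylow.coe_subgroup_smul]
    have h1 : (⟨e, heA⟩ : A) ∈ (S2 : Subgroup A) := hS2 (mem_zpowers _)
    exact Subgroup.smul_mem_pointwise_smul _ (MulAut.conj g) _ h1
  have hx0S : (⟨x0, hx0A⟩ : A) ∈ (S1 : Subgroup A) := hS1 (mem_sup_left (mem_zpowers _))
  have hx1S : (⟨x1, hx1A⟩ : A) ∈ (S1 : Subgroup A) := hS1 (mem_sup_right (mem_zpowers _))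
  have hgG : (g : H) ∈ G := (mem_C.1 g.2).1
  have hgc : (g : H) * c = c * g := (mem_C.1 g.2).2
  set e' : H := (g : H) * e * (g : H)⁻¹ with he'
  have he'G : e' ∈ G := mul_mem (mul_mem hgG he) (inv_mem hgG)
  have he'2 : orderOf e' = 2 := by rw [he', ord_conj]; exact he2
  have key : ∀ x : H, ∀ hxA : x ∈ A, (⟨x, hxA⟩ : A) ∈ (S1 : Subgroup A) → Gd G c x → e' * x = x * e' := by
    intro x hxA hxS hx
    have hx' : Gd G c ((g : H)⁻¹ * x * g) := by
      have h1 := hx.conj' hgG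
      have h2 : (g : H)⁻¹ * c * g = c := by rw [mul_assoc, ← hgc]; group
      rwa [h2] at h1
    obtain ⟨w, hw, hw2, hwb⟩ := hT _ hx'
    have hw' : (g : H) * w * (g : H)⁻¹ ∈ zpowers (x * e') := by
      obtain ⟨i, rfl⟩ := mem_zpowers_iff.1 hw
      refine mem_zpowers_iff.2 ⟨i, ?_⟩
      rw [← conj_zpow]
      congr 1
      rw [he']; group
    have hw2' : orderOf ((g : H) * w * (g : H)⁻¹) = 2 := by rw [ord_conj]; exact hw2
    have hle : zpowers (x * e') ≤ G := by rw [zpowers_le]; exact mul_mem hx.1 he'G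
    have hcc : Commute c e' := by
      have h1 : Commute c (g : H) := hgc.symm
      have h2 : Commute c e := hce
      exact (h1.mul_right h2).mul_right h1.inv_right
    obtain ⟨j, hj⟩ := pow_two_of_mem_sylow S1 (mul_mem hxS heS)
    have hj' : (x * e') ^ 2 ^ j = 1 := congrArg Subtype.val hj
    rcases dih3 hx.2.1 he'2 hw' hw2' with ⟨-, k, hk, hkw⟩ | ⟨h4, -⟩
    · exfalso
      obtain ⟨h5, h6⟩ := comm_of_zp hx.2.1 he'2 hw' hw2'
      have hkc : k⁻¹ * c * k = c := by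
        obtain ⟨i, rfl⟩ := mem_zpowers_iff.1 hk
        have h7 : Commute c (x * e') := Commute.mul_right (show c * x = x * c from hx.comm.symm) hcc
        have h8 := h7.zpow_right i
        rw [mul_assoc, h8.eq]; group
      have h7 := hx.conj' (hle hk)
      rw [← hkw, hkc] at h7
      have h8 := h.toMC.star hc hx h7 (fun h9 => (ord2.1 hw2').2 (mul_eq_left.1 h9.symm))
        (by rw [mul_assoc x _ x, h5])
      rw [← mul_assoc, (ord2.1 hx.2.1).1, one_mul] at h8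
      have h9 := h8.conj' hgG
      have h10 : (g : H)⁻¹ * ((g : H) * w * (g : H)⁻¹) * g = w := by group
      rw [h10] at h9
      exact hwb _ (conj_mem_Om' hc hgG) h9
    · have h5 : orderOf (x * e') ∣ 2 := by
        obtain ⟨i, hi, hi'⟩ := (Nat.dvd_prime_pow Nat.prime_two).1 (orderOf_dvd_of_pow_eq_one hj')
        rw [hi'] at h4 ⊢
        have h6 : i ≤ 1 := by
          by_contra hlt
          push Not at hlt
          exact h4 (pow_dvd_pow 2 hlt : 2 ^ 2 ∣ 2 ^ i)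
        have h7 := pow_dvd_pow 2 h6
        simpa using h7
      have h6 : (x * e') * (x * e') = 1 := by rw [← pow_two]; exact orderOf_dvd_iff_pow_eq_one.1 h5
      calc e' * x = (x * x) * (e' * x) * (e' * e') := by
            rw [(ord2.1 hx.2.1).1, (ord2.1 he'2).1, one_mul, mul_one]
        _ = x * ((x * e') * (x * e')) * e' := by group
        _ = x * e' := by rw [h6, mul_one]
  have h1 := h.toMC.four hc hx0 hx1 hne.symm hcomm.symm he'G he'2 (key x0 hx0A hx0S hx0) (key x1 hx1A hx1S hx1)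
  have h2 := h1.conj' hgG
  have h3 : (g : H)⁻¹ * e' * g = e := by rw [he']; group
  rw [h3] at h2
  exact hbad _ (conj_mem_Om' hc hgG) h2

theorem final (hBT : BT.{u}) (h : MC2 G a p) : False := by
  classical
  -- the action on the cosets
  set C : Subgroup G := (centralizer {a}).subgroupOf G with hC
  have hmemC : ∀ g : G, g ∈ C ↔ (g : H) * a = a * g := by
    intro g
    rw [hC, mem_subgroupOf, mem_centralizer_singleton_iff]
  have hfix : ∀ t g : G, t • (QuotientGroup.mk g : G ⧸ C) = QuotientGroup.mk g ↔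
      (t : H) * ((g : H) * a * (g : H)⁻¹) = ((g : H) * a * (g : H)⁻¹) * t := by
    intro t g
    have h1 : t • (QuotientGroup.mk g : G ⧸ C) = QuotientGroup.mk (t * g) := rfl
    rw [h1, eq_comm, QuotientGroup.eq, hmemC]
    show (g : H)⁻¹ * ((t : H) * g) * a = a * ((g : H)⁻¹ * ((t : H) * g)) ↔ _
    constructor
    · intro h2
      calc (t : H) * ((g : H) * a * (g : H)⁻¹) = g * ((g : H)⁻¹ * ((t : H) * g) * a) * (g : H)⁻¹ := by group
        _ = g * (a * ((g : H)⁻¹ * ((t : H) * g))) * (g : H)⁻¹ := by rw [h2]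
        _ = ((g : H) * a * (g : H)⁻¹) * t := by group
    · intro h2
      calc (g : H)⁻¹ * ((t : H) * g) * a = (g : H)⁻¹ * ((t : H) * ((g : H) * a * (g : H)⁻¹)) * g := by group
        _ = (g : H)⁻¹ * (((g : H) * a * (g : H)⁻¹) * t) * g := by rw [h2]
        _ = a * ((g : H)⁻¹ * ((t : H) * g)) := by group
  have hmkeq : ∀ g g' : G, (g : H) * a * (g : H)⁻¹ = (g' : H) * a * (g' : H)⁻¹ →
      (QuotientGroup.mk g : G ⧸ C) = QuotientGroup.mk g' := by
    intro g g' h1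
    rw [QuotientGroup.eq, hmemC]
    show (g : H)⁻¹ * (g' : H) * a = a * ((g : H)⁻¹ * g')
    calc (g : H)⁻¹ * (g' : H) * a = (g : H)⁻¹ * ((g' : H) * a * (g' : H)⁻¹) * g' := by group
      _ = (g : H)⁻¹ * ((g : H) * a * (g : H)⁻¹) * g' := by rw [h1]
      _ = a * ((g : H)⁻¹ * g') := by group
  have hOm : ∀ g : G, (g : H) * a * (g : H)⁻¹ ∈ Om G a := fun g => ⟨g, g.2, rfl⟩
  obtain ⟨g0, hg0, hg0a⟩ : ∃ g ∈ G, g * a ≠ a * g := by
    by_contra hcon
    push Not at hcon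
    apply h.bad a mem_Om_self
    have h1 : ⁅G, zpowers a⁆ = ⊥ := by
      rw [commutator_eq_bot_iff_le_centralizer]
      intro g hg
      rw [mem_centralizer_iff]
      rintro _ ⟨i, rfl⟩
      have h2 : Commute g a := hcon g hg
      exact (h2.zpow_right i).symm
    rw [h1]
    simp
  have hinv : ∀ t : G, orderOf t = 2 → ∃! x : G ⧸ C, t • x = x := by
    intro t ht
    have ht' : orderOf (t : H) = 2 := by rw [Subgroup.orderOf_coe]; exact ht
    obtain ⟨b, hb, hbt⟩ := h.all_good t.2 ht'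
    obtain ⟨g, hg, hgb⟩ := hb
    refine ⟨QuotientGroup.mk ⟨g, hg⟩, ?_, ?_⟩
    · show t • (QuotientGroup.mk (⟨g, hg⟩ : G) : G ⧸ C) = QuotientGroup.mk ⟨g, hg⟩
      rw [hfix]
      show (t : H) * (g * a * g⁻¹) = (g * a * g⁻¹) * t
      rw [← hgb]; exact hbt.comm
    · intro y
      induction y using QuotientGroup.induction_on with
      | H g' =>
        intro hy
        have h1 := (hfix t g').1 hy
        apply hmkeq
        have h2 := h.toCtx.fix (⟨g, hg, hgb⟩ : b ∈ Om G a) (hOm g') hbt h1.symm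
        rw [h2, hgb]
  have hpt : (QuotientGroup.mk (⟨g0, hg0⟩ : G) : G ⧸ C) ≠ QuotientGroup.mk 1 := by
    intro h1
    rw [eq_comm, QuotientGroup.eq, hmemC] at h1
    apply hg0a
    simpa using h1
  obtain ⟨x0, hx0⟩ := h.ex
  obtain ⟨x1, hx1, hne, hcomm⟩ := h.exists_other mem_Om_self hx0
  have hfaith : ∀ g : G, (∀ x : G ⧸ C, g • x = x) → g = 1 := by
    intro g hg
    set K : Subgroup H := G ⊓ centralizer (Om G a) with hK
    have hOmn : ∀ y : H, ∀ f ∈ Om G a, y * f * y⁻¹ ∈ Om G a := by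
      intro y f hf
      obtain ⟨g1, hg1, i, rfl⟩ := h.gen y
      obtain ⟨g2, hg2, rfl⟩ := hf
      have hn := h.nG
      refine ⟨g1 * (a ^ i * g2 * (a ^ i)⁻¹), mul_mem hg1 (hn.conj_mem _ hg2 _), ?_⟩
      have h1 : a ^ i * a * (a ^ i)⁻¹ = a := by
        rw [mul_inv_eq_iff_eq_mul, ← zpow_add_one, ← zpow_one_add, add_comm]
      calc g1 * a ^ i * (g2 * a * g2⁻¹) * (g1 * a ^ i)⁻¹
          = g1 * (a ^ i * g2 * (a ^ i)⁻¹) * (a ^ i * a * (a ^ i)⁻¹) * (g1 * (a ^ i * g2 * (a ^ i)⁻¹))⁻¹ := by group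
        _ = _ := by rw [h1]
    have hKn : K.Normal := by
      constructor
      rintro k ⟨hk1, hk2⟩ y
      refine mem_inf.2 ⟨h.nG.conj_mem k hk1 y, ?_⟩
      rw [mem_centralizer_iff]
      intro f hf
      have h1 := hOmn y⁻¹ f hf
      rw [inv_inv] at h1
      have h2 := mem_centralizer_iff.1 hk2 _ h1
      calc f * (y * k * y⁻¹) = y * ((y⁻¹ * f * y) * k) * y⁻¹ := by group
        _ = y * (k * (y⁻¹ * f * y)) * y⁻¹ := by rw [h2]
        _ = (y * k * y⁻¹) * f := by group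
    have hKodd : Odd (Nat.card K) := by
      by_contra hev
      rw [Nat.not_odd_iff_even] at hev
      haveI : Fact (Nat.Prime 2) := ⟨Nat.prime_two⟩
      obtain ⟨t, ht⟩ := exists_prime_orderOf_dvd_card' 2 hev.two_dvd
      have ht' : orderOf (t : H) = 2 := by rw [Subgroup.orderOf_coe]; exact ht
      obtain ⟨b, hb, hbt⟩ := h.all_good t.2.1 ht'
      have h1 : ∀ f ∈ Om G a, f = b := fun f hf =>
        h.toCtx.fix hb hf hbt (mem_centralizer_iff.1 t.2.2 f hf)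
      have h2 := h1 _ mem_Om_self
      have h3 := h1 _ (⟨g0, hg0, rfl⟩ : g0 * a * g0⁻¹ ∈ Om G a)
      rw [← h2, mul_inv_eq_iff_eq_mul] at h3
      exact hg0a h3
    have hbot := h.odd K hKn inf_le_left hKodd
    have hgK : (g : H) ∈ K := by
      refine mem_inf.2 ⟨g.2, ?_⟩
      rw [mem_centralizer_iff]
      rintro _ ⟨g1, hg1, rfl⟩
      exact ((hfix g ⟨g1, hg1⟩).1 (hg _)).symm
    rw [hbot, mem_bot] at hgK
    exact Subtype.ext hgK
  have hap : a * g0 * a⁻¹ ∈ G := norm_conj h.norm hg0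
  have hpt2 : (QuotientGroup.mk (⟨a * g0 * a⁻¹, hap⟩ : G) : G ⧸ C) ≠ QuotientGroup.mk 1 := by
    intro h1
    rw [eq_comm, QuotientGroup.eq, hmemC] at h1
    apply hg0a
    have h2 : a * g0 * a⁻¹ * a = a * (a * g0 * a⁻¹) := by simpa using h1
    have h3 : a * g0 = a * (a * g0 * a⁻¹) := by
      rw [← h2]; group
    have h4 := mul_left_cancel h3
    exact eq_mul_inv_iff_mul_eq.1 h4
  obtain ⟨s, hs1, ⟨j, hj⟩, hs2⟩ := hBT G (G ⧸ C) (fun x y => MulAction.exists_smul_eq G x y) hinv ⟨_, _, hpt⟩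
    ⟨⟨x0, hx0.1⟩, by rw [← Subgroup.orderOf_coe]; exact hx0.2.1⟩
    ⟨⟨x0, hx0.1⟩, ⟨x1, hx1.1⟩, by rw [← Subgroup.orderOf_coe]; exact hx0.2.1,
      by rw [← Subgroup.orderOf_coe]; exact hx1.2.1, fun h1 => hne (congrArg Subtype.val h1).symm,
      Subtype.ext hcomm.symm⟩ hfaith (QuotientGroup.mk 1) (QuotientGroup.mk ⟨g0, hg0⟩)
    (QuotientGroup.mk ⟨a * g0 * a⁻¹, hap⟩) hpt hpt2
  have hsa : Commute (s : H) a := by
    have h1 := (hfix s 1).1 hs1
    show (s : H) * a = a * s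
    simpa using h1
  have hj' : (s : H) ^ 2 ^ j = 1 := congrArg Subtype.val hj
  -- `s⁻¹ a` commutes with `g0 a g0⁻¹`
  have h1 : Commute ((s : H)⁻¹ * a) (g0 * a * g0⁻¹) := by
    have h2 : s • (QuotientGroup.mk (⟨g0, hg0⟩ : G) : G ⧸ C) = QuotientGroup.mk (s * ⟨g0, hg0⟩) := rfl
    rw [h2, QuotientGroup.eq, hmemC] at hs2
    have h3 : ((s : H) * g0)⁻¹ * (a * g0 * a⁻¹) * a = a * (((s : H) * g0)⁻¹ * (a * g0 * a⁻¹)) := hs2
    have h4 : g0⁻¹ * ((s : H)⁻¹ * a) * g0 * a⁻¹ * a = a * (g0⁻¹ * ((s : H)⁻¹ * a) * g0 * a⁻¹) := by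
      calc g0⁻¹ * ((s : H)⁻¹ * a) * g0 * a⁻¹ * a = ((s : H) * g0)⁻¹ * (a * g0 * a⁻¹) * a := by group
        _ = a * (((s : H) * g0)⁻¹ * (a * g0 * a⁻¹)) := h3
        _ = _ := by group
    show (s : H)⁻¹ * a * (g0 * a * g0⁻¹) = g0 * a * g0⁻¹ * ((s : H)⁻¹ * a)
    have h5 : g0⁻¹ * ((s : H)⁻¹ * a) * g0 * a = a * (g0⁻¹ * ((s : H)⁻¹ * a) * g0) := by
      have h6 : g0⁻¹ * ((s : H)⁻¹ * a) * g0 = (g0⁻¹ * ((s : H)⁻¹ * a) * g0 * a⁻¹) * a := by group
      calc g0⁻¹ * ((s : H)⁻¹ * a) * g0 * a = (g0⁻¹ * ((s : H)⁻¹ * a) * g0 * a⁻¹ * a) * a := by group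
        _ = a * (g0⁻¹ * ((s : H)⁻¹ * a) * g0 * a⁻¹) * a := by rw [h4]
        _ = _ := by group
    calc (s : H)⁻¹ * a * (g0 * a * g0⁻¹) = g0 * (g0⁻¹ * ((s : H)⁻¹ * a) * g0 * a) * g0⁻¹ := by group
      _ = g0 * (a * (g0⁻¹ * ((s : H)⁻¹ * a) * g0)) * g0⁻¹ := by rw [h5]
      _ = _ := by group
  have h2 : ((s : H)⁻¹ * a) ^ 2 ^ j = a ^ 2 ^ j := by
    rw [hsa.inv_left.mul_pow, inv_pow, hj', inv_one, one_mul]
  have h3 : Commute (a ^ 2 ^ j) (g0 * a * g0⁻¹) := by rw [← h2]; exact h1.pow_left _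
  have h4 : Commute a (g0 * a * g0⁻¹) := by
    have hp2 : p ≠ 2 := by
      rintro rfl
      apply h.ndvd
      have h5 : orderOf (⟨x0, hx0.1⟩ : G) = 2 := by rw [← Subgroup.orderOf_coe]; exact hx0.2.1
      exact h5 ▸ orderOf_dvd_natCard (⟨x0, hx0.1⟩ : G)
    have hcop : (2 ^ j).Coprime (orderOf a) := by
      rw [h.ord]
      exact Nat.Coprime.pow_left j ((Nat.coprime_primes Nat.prime_two h.hp).2 hp2.symm)
    obtain ⟨m, hm⟩ := exists_pow_eq_self_of_coprime hcop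
    have h6 := h3.pow_left m
    rwa [hm] at h6
  have h5 := h.toCtx.om_comm (mem_Om_self : a ∈ Om G a) (⟨g0, hg0, rfl⟩ : g0 * a * g0⁻¹ ∈ Om G a) h4.symm
  rw [mul_inv_eq_iff_eq_mul] at h5
  exact hg0a h5

end MC2

end Cfsg.Agent.H64.CI
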