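import Cfsg.Agent.H64.CI.E

/-! Coprime automorphisms centralizing the centralizer of an involution: reductions and the main theorem. -/

set_option autoImplicit false

open scoped Pointwise commutatorElement
open Subgroup

universe u

namespace Cfsg.Agent.H64.CI

section Pow

variable {X : Type*} [Group X] [Finite X]

/-- A finite group all of whose `2`-elements are central has an odd power map to its center. -/
theorem odd_pow (h : ∀ x : X, (∃ k, orderOf x = 2 ^ k) → x ∈ Subgroup.center X) :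
    ∃ N : ℕ, Odd N ∧ (∀ x y : X, (x * y) ^ N = x ^ N * y ^ N) ∧
      (∀ x y : X, Commute (x ^ N) y) ∧ ∀ x : X, ∃ k, orderOf (x ^ N) = 2 ^ k := by
  haveI : Fact (Nat.Prime 2) := ⟨Nat.prime_two⟩
  obtain ⟨R⟩ : Nonempty (Sylow 2 X) := inferInstance
  have hR : (R : Subgroup X) ≤ Subgroup.center X := by
    intro x hx
    apply h
    obtain ⟨j, hj⟩ := R.2 ⟨x, hx⟩
    have hj' : x ^ 2 ^ j = 1 := congrArg Subtype.val hj
    obtain ⟨i, -, hi⟩ := (Nat.dvd_prime_pow Nat.prime_two).mp (orderOf_dvd_of_pow_eq_one hj')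
    exact ⟨i, hi⟩
  have hn : Odd (Subgroup.center X).index := by
    rw [← Nat.not_even_iff_odd, even_iff_two_dvd]
    intro h2
    exact R.not_dvd_index (h2.trans (Subgroup.index_dvd_of_le hR))
  have hcard := (Nat.ordProj_mul_ordCompl_eq_self (Nat.card X) 2)
  set k := Nat.card X / 2 ^ (Nat.card X).factorization 2 with hk
  have hkodd : Odd k := by
    rw [← Nat.not_even_iff_odd, even_iff_two_dvd]
    exact Nat.not_dvd_ordCompl Nat.prime_two Nat.card_pos.ne'
  have hcen : ∀ x : X, x ^ (Subgroup.center X).index ∈ Subgroup.center X :=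
    fun x => (Subgroup.center X).pow_index_mem x
  have hmul : ∀ x y : X, (x * y) ^ (Subgroup.center X).index =
      x ^ (Subgroup.center X).index * y ^ (Subgroup.center X).index := by
    intro x y
    have := congrArg Subtype.val (map_mul (MonoidHom.transferCenterPow X) x y)
    exact this
  refine ⟨(Subgroup.center X).index * k, hn.mul hkodd, ?_, ?_, ?_⟩
  · intro x y
    rw [pow_mul, hmul, Commute.mul_pow, ← pow_mul, ← pow_mul]
    exact (Subgroup.mem_center_iff.mp (hcen y) _)
  · intro x y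
    rw [pow_mul]
    exact Commute.pow_left (Subgroup.mem_center_iff.mp (hcen x) y).symm k
  · intro x
    have h1 : (x ^ ((Subgroup.center X).index * k)) ^ 2 ^ (Nat.card X).factorization 2 = 1 := by
      rw [← pow_mul, mul_assoc, mul_comm k, hcard, mul_comm, pow_mul, pow_card_eq_one', one_pow]
    obtain ⟨i, -, hi⟩ := (Nat.dvd_prime_pow Nat.prime_two).mp (orderOf_dvd_of_pow_eq_one h1)
    exact ⟨i, hi⟩

end Pow

/-- the statement for one configuration -/
def St (H : Type u) [Group H] (X : Subgroup H) : Prop :=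
  ∀ (p : ℕ) (b x : H), p.Prime → orderOf b = p → ¬ p ∣ Nat.card X → b ∈ normalizer (X : Set H) → x ∈ X →
    orderOf x = 2 → (∀ y ∈ X, y * x = x * y → y * b = b * y) → Odd (Nat.card ↥⁅X, zpowers b⁆)

theorem map_zp {H K : Type*} [Group H] [Group K] (f : H →* K) (b : H) :
    (zpowers b).map f = zpowers (f b) := MonoidHom.map_zpowers f b

/-- a subgroup of even order contains an involution -/
theorem ex_inv {H : Type*} [Group H] [Finite H] {M : Subgroup H} (h : ¬ Odd (Nat.card M)) :
    ∃ t ∈ M, orderOf t = 2 := by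
  haveI : Fact (Nat.Prime 2) := ⟨Nat.prime_two⟩
  rw [Nat.not_odd_iff_even] at h
  obtain ⟨t, ht⟩ := exists_prime_orderOf_dvd_card' 2 h.two_dvd
  exact ⟨t, t.2, by rw [Subgroup.orderOf_coe]; exact ht⟩

theorem odd_ord {H : Type*} [Group H] [Finite H] {M : Subgroup H} (h : Odd (Nat.card M)) {t : H} (ht : t ∈ M) :
    Odd (orderOf t) := by
  have h1 : orderOf (⟨t, ht⟩ : M) = orderOf t := (Subgroup.orderOf_coe (⟨t, ht⟩ : M)).symm
  rw [← h1]
  exact h.of_dvd_nat (orderOf_dvd_natCard _)

theorem comm_mem_iff {H : Type*} [Group H] {N : Subgroup H} [N.Normal] {y z : H} :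
    QuotientGroup.mk' N y * QuotientGroup.mk' N z = QuotientGroup.mk' N z * QuotientGroup.mk' N y ↔
      y * z * y⁻¹ * z⁻¹ ∈ N := by
  rw [← map_mul, ← map_mul, QuotientGroup.mk'_eq_mk']
  constructor
  · rintro ⟨n, hn, h⟩
    have h2 : y * z * y⁻¹ * z⁻¹ = (y * z) * n⁻¹ * (y * z)⁻¹ := by
      have h4 : y⁻¹ * z⁻¹ = (z * y)⁻¹ := by group
      rw [mul_assoc (y * z), h4, ← h]; group
    rw [h2]
    exact (inferInstance : N.Normal).conj_mem _ (inv_mem hn) _
  · intro h
    refine ⟨(y * z)⁻¹ * (y * z * y⁻¹ * z⁻¹)⁻¹ * (y * z), ?_, by group⟩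
    have h3 := (inferInstance : N.Normal).conj_mem _ (inv_mem h) (y * z)⁻¹
    rwa [inv_inv] at h3

section
variable {H : Type u} [Group H] [Finite H] {G : Subgroup H} {a x : H} {p : ℕ}

theorem normal_case (hBT : BT.{u}) (hp : p.Prime) (ha : orderOf a = p) (hpG : ¬ p ∣ Nat.card G) (hG : G.Normal)
    (hgen : ∀ y : H, ∃ g ∈ G, ∃ i : ℤ, y = g * a ^ i) (hx : x ∈ G) (hx2 : orderOf x = 2)
    (hc : ∀ y ∈ G, y * x = x * y → y * a = a * y)
    (IH : ∀ (K : Type u) [Group K] [Finite K] (X : Subgroup K), Nat.card X < Nat.card G → St K X) :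
    Odd (Nat.card ↥⁅G, zpowers a⁆) := by
  classical
  by_contra hbad
  have haG : a ∈ normalizer (G : Set H) := by rw [normalizer_eq_top]; exact mem_top _
  have hctx : Ctx G a p := ⟨hp, ha, hpG, haG⟩
  have hgd : Gd G a x := ⟨hx, hx2, hc⟩
  -- the quotient
  have quot : ∀ N : Subgroup H, ∀ hN : N.Normal, N ≤ G → N ≠ ⊥ → x ∉ N →
      (∀ y ∈ G, y * x * y⁻¹ * x⁻¹ ∈ N → y * a * y⁻¹ * a⁻¹ ∈ N) →
      Odd (Nat.card ↥(⁅G, zpowers a⁆.map (QuotientGroup.mk' N))) := by
    intro N hN hNG hNb hxN hcond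
    have hlt : Nat.card (G.map (QuotientGroup.mk' N)) < Nat.card G := by
      have h1 : Nat.card (G.map (QuotientGroup.mk' N)) * Nat.card N = Nat.card G := by
        have h2 := Subgroup.card_mul_index ((QuotientGroup.mk' N).subgroupMap G).ker
        have h3 : Nat.card ((QuotientGroup.mk' N).subgroupMap G).ker = Nat.card N := by
          have h4 : ((QuotientGroup.mk' N).subgroupMap G).ker = N.subgroupOf G := by
            ext z
            rw [MonoidHom.mem_ker, mem_subgroupOf, ← QuotientGroup.eq_one_iff]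
            exact Subtype.ext_iff
          rw [h4]
          exact Nat.card_congr (subgroupOfEquivOfLe hNG).toEquiv
        have h5 : (((QuotientGroup.mk' N).subgroupMap G).ker).index = Nat.card (G.map (QuotientGroup.mk' N)) := by
          rw [Subgroup.index_ker]
          have h6 : ((QuotientGroup.mk' N).subgroupMap G).range = ⊤ :=
            MonoidHom.range_eq_top.2 (MonoidHom.subgroupMap_surjective _ _)
          rw [h6]
          exact Nat.card_congr topEquiv.toEquiv
        rw [← h2, h3, h5, mul_comm]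
      have h2 : 1 < Nat.card N := by
        rw [Subgroup.one_lt_card_iff_ne_bot]; exact hNb
      have h3 : 0 < Nat.card (G.map (QuotientGroup.mk' N)) := Nat.card_pos
      nlinarith
    have hst := IH (H ⧸ N) (G.map (QuotientGroup.mk' N)) hlt p (QuotientGroup.mk' N a) (QuotientGroup.mk' N x) hp
    rw [map_commutator, map_zp]
    apply hst
    · haveI := Fact.mk hp
      apply orderOf_eq_prime
      · rw [← map_pow, ← ha, pow_orderOf_eq_one, map_one]
      · intro h1
        have h2 : a ∈ N := (QuotientGroup.eq_one_iff a).1 h1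
        have h3 : orderOf (⟨a, h2⟩ : N) = p := by rw [← ha]; exact (Subgroup.orderOf_coe (⟨a, h2⟩ : N)).symm
        exact hpG ((h3 ▸ orderOf_dvd_natCard (⟨a, h2⟩ : N)).trans (card_dvd_of_le hNG))
    · intro h1
      exact hpG (h1.trans (card_map_dvd _ _))
    · have := hG.map (QuotientGroup.mk' N) (QuotientGroup.mk'_surjective N)
      rw [normalizer_eq_top]; exact mem_top _
    · exact ⟨x, hx, rfl⟩
    · rw [ord2]
      refine ⟨by rw [← map_mul, (ord2.1 hx2).1, map_one], fun h1 => hxN ((QuotientGroup.eq_one_iff x).1 h1)⟩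
    · rintro _ ⟨y, hy, rfl⟩ hyx
      rw [comm_mem_iff] at hyx ⊢
      exact hcond y hy hyx
  have kerN : ∀ N : Subgroup H, ∀ hN : N.Normal,
      Odd (Nat.card ↥(⁅G, zpowers a⁆.map (QuotientGroup.mk' N))) → ∀ t ∈ ⁅G, zpowers a⁆,
      (∃ k, orderOf t = 2 ^ k) → t ∈ N := by
    intro N hN hodd t ht hk
    obtain ⟨k, hk⟩ := hk
    have h1 : QuotientGroup.mk' N t ∈ ⁅G, zpowers a⁆.map (QuotientGroup.mk' N) := ⟨t, ht, rfl⟩
    have h2 := odd_ord hodd h1
    have h3 : orderOf (QuotientGroup.mk' N t) ∣ 2 ^ k := hk ▸ orderOf_map_dvd _ t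
    have h4 : orderOf (QuotientGroup.mk' N t) = 1 :=
      Nat.Coprime.eq_one_of_dvd (Nat.Coprime.pow_right k (Nat.coprime_two_right.2 h2)) h3
    rw [orderOf_eq_one_iff] at h4
    exact (QuotientGroup.eq_one_iff t).1 h4
  have oddN : ∀ N : Subgroup H, N.Normal → N ≤ G → Odd (Nat.card N) → N = ⊥ := by
    intro N hN hNG hodd
    by_contra hNb
    have hxN : x ∉ N := by
      intro h1
      have h2 := odd_ord hodd h1
      rw [hx2] at h2
      exact absurd h2 (by decide)
    have h1 := quot N hN hNG hNb hxN (by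
      intro y hy hyx
      obtain ⟨n, hn, hn'⟩ := sy Nat.prime_two hx2 (by
          rw [← even_iff_two_dvd, Nat.not_even_iff_odd]; exact hodd)
        (by rw [normalizer_eq_top]; exact mem_top _) hyx
        (by rw [conj_pow, pow_two, (ord2.1 hx2).1]; group)
      have h3 : n⁻¹ * y * x = x * (n⁻¹ * y) := by
        calc n⁻¹ * y * x = n⁻¹ * (y * x * y⁻¹) * y := by group
          _ = n⁻¹ * (n * x * n⁻¹) * y := by rw [hn']
          _ = x * (n⁻¹ * y) := by group
      have h4 := hc _ (mul_mem (inv_mem (hNG hn)) hy) h3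
      have h5 : y * a * y⁻¹ * a⁻¹ = n * (a * n⁻¹ * a⁻¹) := by
        calc y * a * y⁻¹ * a⁻¹ = n * (n⁻¹ * y * a) * y⁻¹ * a⁻¹ := by group
          _ = n * (a * (n⁻¹ * y)) * y⁻¹ * a⁻¹ := by rw [h4]
          _ = n * (a * n⁻¹ * a⁻¹) := by group
      rw [h5]
      exact mul_mem hn (hN.conj_mem _ (inv_mem hn) a))
    obtain ⟨t, ht, ht2⟩ := ex_inv hbad
    have h2 := kerN N hN h1 t ht ⟨1, by rw [ht2, pow_one]⟩
    have h3 := odd_ord hodd h2
    rw [ht2] at h3
    exact absurd h3 (by decide)
  have hcentral : ¬ ∀ y ∈ G, y * a = a * y := by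
    intro hcon
    apply hbad
    have h1 : ⁅G, zpowers a⁆ = ⊥ := by
      rw [commutator_eq_bot_iff_le_centralizer]
      intro g hg
      rw [mem_centralizer_iff]
      rintro _ ⟨i, rfl⟩
      have h2 : Commute g a := hcon g hg
      exact (h2.zpow_right i).symm
    rw [h1]
    simp
  have hMG : ⁅G, zpowers a⁆ ≤ G := (comm_norm haG).1
  have nc : ∀ w ∈ G, orderOf w = 2 → ∃ y ∈ G, y * w ≠ w * y := by
    intro w hw hw2
    by_contra hcon
    push Not at hcon
    have hwa : w * a = a * w := hc w hw (hcon x hx).symm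
    have hwH : ∀ z : H, z * w = w * z := by
      intro z
      obtain ⟨g, hg, i, rfl⟩ := hgen z
      have h1 : Commute g w := hcon g hg
      have h2 : Commute a w := hwa.symm
      exact h1.mul_left (h2.zpow_left i)
    have hN : (zpowers w).Normal := by
      constructor
      rintro _ ⟨i, rfl⟩ z
      refine ⟨i, ?_⟩
      have h1 : Commute z w := hwH z
      show w ^ i = z * w ^ i * z⁻¹
      rw [(h1.zpow_right i).eq, mul_inv_cancel_right]
    have hmemw : ∀ t, t ∈ zpowers w → t = 1 ∨ t = w := by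
      rintro _ ⟨i, rfl⟩
      show w ^ i = 1 ∨ w ^ i = w
      have h1 : w ^ (2 : ℤ) = 1 := by
        have : w ^ (2 : ℤ) = w * w := by rw [zpow_two]
        rw [this, (ord2.1 hw2).1]
      rcases Int.even_or_odd i with ⟨k, hk⟩ | ⟨k, hk⟩
      · left
        rw [hk, ← two_mul, zpow_mul, h1, one_zpow]
      · right
        rw [hk, zpow_add_one, zpow_mul, h1, one_zpow, one_mul]
    have hxw : x ≠ w := by
      rintro rfl
      exact hcentral fun y hy => hc y hy (hcon y hy)
    have hxN : x ∉ zpowers w := by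
      intro h1
      rcases hmemw x h1 with h2 | h2
      · exact (ord2.1 hx2).2 h2
      · exact hxw h2
    have hq := quot (zpowers w) hN (by rw [zpowers_le]; exact hw) (by
        rw [Ne, zpowers_eq_bot]; exact (ord2.1 hw2).2) hxN (by
      intro y hy hyx
      have hya : y * a = a * y := by
        rcases hmemw _ hyx with h1 | h1
        · rw [mul_inv_eq_one, mul_inv_eq_iff_eq_mul] at h1
          exact hc y hy h1
        · have h2 : y * x * y⁻¹ = w * x := by rw [← h1]; group
          have h3 := hgd.conj hy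
          rw [h2] at h3
          have h4 : a * (w * x) = (w * x) * a := by
            have h5 : Commute a w := hwa.symm
            have h6 : Commute a x := hgd.comm.symm
            exact h5.mul_right h6
          have h5 := hctx.fix (⟨y, hy, rfl⟩ : y * a * y⁻¹ ∈ Om G a) mem_Om_self h3 h4
          rw [eq_mul_inv_iff_mul_eq] at h5
          exact h5.symm
      rw [hya]
      have h7 : a * y * y⁻¹ * a⁻¹ = 1 := by group
      rw [h7]; exact one_mem _)
    set M := ⁅G, zpowers a⁆ with hM
    have h2el : ∀ t ∈ M, (∃ k, orderOf t = 2 ^ k) → t ∈ zpowers w := fun t ht hk =>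
      kerN _ hN hq t ht hk
    obtain ⟨t, ht, ht2⟩ := ex_inv hbad
    have htw : t = w := by
      rcases hmemw t (h2el t ht ⟨1, by rw [ht2, pow_one]⟩) with h1 | h1
      · exact absurd h1 (ord2.1 ht2).2
      · exact h1
    have hwM : w ∈ M := htw ▸ ht
    obtain ⟨n, hn, hn1, -, hn3⟩ := odd_pow (X := M) (by
      rintro z ⟨k, hk⟩
      rw [Subgroup.mem_center_iff]
      intro y
      have h1 := h2el (z : H) z.2 ⟨k, by rw [Subgroup.orderOf_coe]; exact hk⟩
      apply Subtype.ext
      show (y : H) * z = z * y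
      rcases hmemw _ h1 with h2 | h2
      · rw [h2]; group
      · rw [h2]; exact hwH _)
    have hpow : ∀ m ∈ M, ∀ z : H, m ^ n * z = z * m ^ n := by
      intro m hm z
      obtain ⟨k, hk⟩ := hn3 ⟨m, hm⟩
      have h1 := h2el (m ^ n) (pow_mem hm n) ⟨k, by
        rw [← hk, ← Subgroup.orderOf_coe]; rfl⟩
      rcases hmemw _ h1 with h2 | h2
      · rw [h2]; group
      · rw [h2]; exact (hwH z).symm
    have hmul : ∀ m ∈ M, ∀ m' ∈ M, (m * m') ^ n = m ^ n * m' ^ n := by
      intro m hm m' hm'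
      exact congrArg Subtype.val (hn1 ⟨m, hm⟩ ⟨m', hm'⟩)
    let K0 : Subgroup H :=
      { carrier := {m | m ∈ M ∧ m ^ n = 1}
        mul_mem' := by
          rintro m m' ⟨hm, h1⟩ ⟨hm', h2⟩
          exact ⟨mul_mem hm hm', by rw [hmul m hm m' hm', h1, h2, one_mul]⟩
        one_mem' := ⟨one_mem _, one_pow _⟩
        inv_mem' := by
          rintro m ⟨hm, h1⟩
          exact ⟨inv_mem hm, by rw [inv_pow, h1, inv_one]⟩ }
    have haM : a ∈ normalizer (M : Set H) := (comm_norm haG).2.2
    have hcomm : ⁅M, zpowers a⁆ ≤ K0 := by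
      rw [commutator_le]
      intro m hm z hz
      have hzM : z ∈ normalizer (M : Set H) := by
        obtain ⟨i, rfl⟩ := mem_zpowers_iff.1 hz
        exact zpow_mem haM i
      have h1 : z * m⁻¹ * z⁻¹ ∈ M := norm_conj hzM (inv_mem hm)
      have h2 : ⁅m, z⁆ = m * (z * m⁻¹ * z⁻¹) := by rw [commutatorElement_def]; group
      rw [h2]
      refine ⟨mul_mem hm h1, ?_⟩
      rw [hmul m hm _ h1, conj_pow, inv_pow]
      have h3 := hpow m hm z
      have h4 : z * (m ^ n)⁻¹ = (m ^ n)⁻¹ * z := by
        rw [eq_inv_mul_iff_mul_eq, ← mul_assoc, h3]; group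
      rw [h4]; group
    have hcop : (Nat.card (zpowers a)).Coprime (Nat.card G) := by
      rw [Nat.card_zpowers, ha]
      exact (Nat.Prime.coprime_iff_not_dvd hp).2 hpG
    have hAG : zpowers a ≤ normalizer (G : Set H) := by rw [zpowers_le]; exact haG
    have h1 := Cop.commutator_commutator_eq hAG hcop (Or.inl inferInstance)
    have h2 : w ∈ K0 := hcomm (by rw [hM, h1]; exact hwM)
    obtain ⟨m, hm⟩ := hn
    have h3 : w ^ n = w := by
      rw [hm, pow_succ, pow_mul, pow_two, (ord2.1 hw2).1, one_pow, one_mul]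
    have h4 : w ^ n = 1 := h2.2
    rw [h3] at h4
    exact (ord2.1 hw2).2 h4
  -- the minimal counterexample
  apply MC2.final (G := G) (a := a) (p := p) hBT
  refine ⟨⟨hctx, ?_, nc, ?_, ⟨x, hgd⟩⟩, hG, hgen, oddN⟩
  · intro X hX b x' hb hbX hx' hx'2 hc'
    have hcard : Nat.card X < Nat.card G := by
      by_contra hge
      push Not at hge
      exact hX.ne (Subgroup.eq_of_le_of_card_ge hX.le hge)
    exact IH H X hcard p b x' hp hb (fun h1 => hpG (h1.trans (card_dvd_of_le hX.le))) hbX hx' hx'2 hc'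
  · rintro b ⟨g, hg, rfl⟩ hodd
    apply hbad
    have h1 : (⁅G, zpowers a⁆).map (MulAut.conj g).toMonoidHom = ⁅G, zpowers (g * a * g⁻¹)⁆ := by
      rw [map_commutator, map_zp]
      congr 1
      ext y
      constructor
      · rintro ⟨z, hz, rfl⟩
        exact hG.conj_mem z hz g
      · intro hy
        exact ⟨g⁻¹ * y * g, by simpa using hG.conj_mem y hy g⁻¹, by
          show g * (g⁻¹ * y * g) * g⁻¹ = y
          group⟩
    rw [← h1, Subgroup.card_map_of_injective (MulAut.conj g).injective] at hodd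
    exact hodd

end

theorem main_aux (hBT : BT.{u}) : ∀ (n : ℕ) (H : Type u) [Group H] [Finite H] (X : Subgroup H), Nat.card X = n →
    St H X := by
  intro n
  induction n using Nat.strong_induction_on with
  | _ n ih =>
  intro H _ _ X hn p b x hp hb hpX hbX hx hx2 hc
  have IH : ∀ (K : Type u) [Group K] [Finite K] (Y : Subgroup K), Nat.card Y < Nat.card X → St K Y :=
    fun K _ _ Y hY => ih _ (hn ▸ hY) K Y rfl
  set L : Subgroup H := X ⊔ zpowers b with hL
  have hXL : X ≤ L := le_sup_left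
  have hbL : b ∈ L := mem_sup_right (mem_zpowers b)
  have hAN : zpowers b ≤ normalizer (X : Set H) := by rwa [zpowers_le]
  have hnorm : (X.subgroupOf L).Normal := Subgroup.normal_subgroupOf_of_le_normalizer (sup_le le_normalizer hAN)
  have hcard : Nat.card (X.subgroupOf L) = Nat.card X := Nat.card_congr (subgroupOfEquivOfLe hXL).toEquiv
  have key := normal_case (H := L) (G := X.subgroupOf L) (a := ⟨b, hbL⟩) (x := ⟨x, hXL hx⟩) (p := p) hBT hp
    (by rw [← hb]; exact (Subgroup.orderOf_coe (⟨b, hbL⟩ : L)).symm) (by rw [hcard]; exact hpX) hnorm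
    (by
      rintro ⟨y, hy⟩
      have hy' : y ∈ ((X ⊔ zpowers b : Subgroup H) : Set H) := hy
      rw [Subgroup.coe_mul_of_right_le_normalizer_left _ _ hAN] at hy'
      obtain ⟨g, hg, z, hz, rfl⟩ := hy'
      obtain ⟨i, rfl⟩ := mem_zpowers_iff.1 hz
      exact ⟨⟨g, hXL hg⟩, hg, i, Subtype.ext rfl⟩)
    hx (by rw [← hx2]; exact (Subgroup.orderOf_coe (⟨x, hXL hx⟩ : L)).symm)
    (by
      rintro ⟨y, hy⟩ hyX hyx
      exact Subtype.ext (hc y hyX (congrArg Subtype.val hyx)))
    (fun K _ _ Y hY => IH K Y (by rwa [hcard] at hY))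
  have h1 : (⁅X.subgroupOf L, zpowers (⟨b, hbL⟩ : L)⁆).map L.subtype = ⁅X, zpowers b⁆ := by
    rw [map_commutator, map_zp, subgroupOf_map_subtype, inf_eq_left.2 hXL]
    rfl
  rw [← h1, Subgroup.card_map_of_injective L.subtype_injective]
  exact key

/-- **Main theorem**: if a coprime automorphism `b` of prime order centralizes the centralizer of an involution of
`X`, then `[X, b]` has odd order. -/
theorem main (hBT : BT.{u}) {H : Type u} [Group H] [Finite H] (X : Subgroup H) : St H X :=
  main_aux hBT _ H X rfl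

end Cfsg.Agent.H64.CI
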